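import Cfsg.Agent.Lib.EqualDegrees.Rank
import Mathlib.RingTheory.Idempotents
import Mathlib.LinearAlgebra.Matrix.Charpoly.Basic

/-!
# Blocks in which all degrees are equal: the characters come from central elements

The reductions of the members share their kernel and are onto, so a matrix unit lifts to an
idempotent acting with rank one in every member. Hence for each `g` some element of the group
ring over the valuation ring acts in every member `χ` as the scalar `χ g`.
-/

set_option autoImplicit false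
set_option linter.style.haveILetI false
set_option linter.unusedSectionVars false

noncomputable section

namespace CfsgLib.EqualDegrees

open Cfsg CfsgLib.Blocks CfsgLib.IBr CfsgLib.IBr.PSys CfsgLib.BrauerCharacters
  CfsgLib.Jordan.CyclicDefect MonoidAlgebra Module Finset Polynomial
open scoped Matrix

universe u

/-- An idempotent matrix of rank one cuts out the scalars. -/
theorem mul_mul_eq_trace_smul {K : Type*} [Field K] {m : ℕ} {P : Matrix (Fin m) (Fin m) K}
    (h : finrank K (LinearMap.range P.mulVecLin) = 1) (X : Matrix (Fin m) (Fin m) K) :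
    P * X * P = (X * P).trace • P := by
  obtain ⟨⟨u, hu⟩, hu0, hspan⟩ := finrank_eq_one_iff'.1 h
  have hcol : ∀ v, ∃ c : K, P *ᵥ v = c • u := fun v => by
    obtain ⟨c, hc⟩ := hspan ⟨P *ᵥ v, ⟨v, rfl⟩⟩
    exact ⟨c, (congrArg Subtype.val hc).symm⟩
  choose c hc using fun j : Fin m => hcol (Pi.single j 1)
  have hP : P = Matrix.vecMulVec u c := by
    ext i j
    have := congrFun (hc j) i
    rw [Matrix.mulVec_single_one] at this
    simpa [Matrix.vecMulVec_apply, mul_comm] using this
  rw [hP]
  ext i j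
  simp only [Matrix.smul_apply, Matrix.vecMulVec_apply, smul_eq_mul,
    Matrix.mul_apply, Matrix.trace, Matrix.diag_apply, Finset.sum_mul]
  rw [Finset.sum_comm]
  exact Finset.sum_congr rfl fun k _ => Finset.sum_congr rfl fun l _ => by ring

theorem map_aeval_eq {R T : Type*} [CommRing R] [CommRing T] (f : R →+* T) {G : Type*} [Group G]
    (x : MonoidAlgebra R G) (q : R[X]) :
    mapRingHom G f (aeval x q) = aeval (mapRingHom G f x) (q.map f) := by
  induction q using Polynomial.induction_on' with
  | add q q' h h' => simp only [map_add, Polynomial.map_add, h, h']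
  | monomial k a =>
    rw [Polynomial.map_monomial, aeval_monomial, aeval_monomial, map_mul, map_pow]
    simp

variable {p : ℕ} {M : Ideal AlgInt} [M.IsPrime] (S : PSys p M)
variable {G : Type u} [Group G] [Fintype G]

/-- A realisation of a character over the valuation ring. -/
def rep (χ : IrrCharacter G) : LocalRep (above S) χ := (exists_localRep (above S) χ).some

/-- The realisation on the group ring. -/
def val (χ : IrrCharacter G) :
    MonoidAlgebra S.V G →ₐ[S.V] Matrix (Fin (rep S χ).N) (Fin (rep S χ).N) S.V :=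
  valAlg (above S) (rep S χ).ρ

/-- Its reduction. -/
def sig (χ : IrrCharacter G) :
    MonoidAlgebra S.K G →ₐ[S.K] Matrix (Fin (rep S χ).N) (Fin (rep S χ).N) S.K :=
  redAlg (above S) (rep S χ).ρ

theorem map_val (χ : IrrCharacter G) (z : MonoidAlgebra S.V G) :
    (val S χ z).map (IsLocalRing.residue S.V) =
      sig S χ (mapRingHom G (IsLocalRing.residue S.V) z) :=
  map_valAlg (above S) (rep S χ).ρ z

theorem val_single (χ : IrrCharacter G) (g : G) (c : S.V) :
    val S χ (single g c) = c • (rep S χ).ρ g := valAlg_single (above S) (rep S χ).ρ g c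

theorem exists_lift_elem (x : MonoidAlgebra S.K G) :
    ∃ X : MonoidAlgebra S.V G, mapRingHom G (IsLocalRing.residue S.V) X = x := by
  choose c hc using fun g => IsLocalRing.residue_surjective (R := S.V) (x.coeff g)
  exact ⟨ofFun c, MonoidAlgebra.ext (Finsupp.ext fun g => by
    rw [coeff_mapRingHom, coeff_ofFun]; exact hc g)⟩

variable {B : Set (IrrCharacter G)} (hB : IsPBlock M B)

theorem sig_eK {χ : IrrCharacter G} (hχ : χ ∈ B) :
    sig S χ (EqualDegree.eK (above S) B hB) = 1 := by
  classical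
  rw [sig, EqualDegree.redAlg_eK (above S) hB (rep S χ).ρ (rep S χ).trace_eq, if_pos hχ]

open scoped Classical in
theorem val_eV (χ : IrrCharacter G) :
    val S χ (EqualDegree.eV (above S) B hB) = if χ ∈ B then 1 else 0 :=
  EqualDegree.valAlg_eV (above S) hB (rep S χ).ρ (rep S χ).trace_eq

/-- A monic polynomial killing an element on all members of a set. -/
theorem val_aeval_prod_charpoly {χ : IrrCharacter G} (hχ : χ ∈ B) (Z : MonoidAlgebra S.V G) :
    val S χ (aeval Z (∏ η ∈ blockFinset B, (val S η Z).charpoly)) = 0 := by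
  rw [← aeval_algHom_apply]
  obtain ⟨r, hr⟩ := Finset.dvd_prod_of_mem (fun η => (val S η Z).charpoly)
    (mem_blockFinset.2 hχ)
  rw [hr, map_mul, Matrix.aeval_self_charpoly, zero_mul]

variable [hp : Fact p.Prime] (hG : S.Fits G) {n : ℕ}
  (hdeg : ∀ χ ∈ B, charDegree (χ : G → ℂ) = n)
include hB hG hdeg

theorem sig_eq_zero {χ η : IrrCharacter G} (hχ : χ ∈ B) (hη : η ∈ B) {x : MonoidAlgebra S.K G}
    (h : sig S χ x = 0) : sig S η x = 0 := by
  have h1 : act (red (rep S χ).ρ) (fun g => x.coeff g) = 0 :=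
    (act_red_eq S (rep S χ).ρ x).trans ((congrArg _ h).trans (map_zero _))
  have h2 := hG.act_eq_zero_of_brau_eq
    (s := ⟨(rep S η).N, red (rep S η).ρ⟩) (t := ⟨(rep S χ).N, red (rep S χ).ρ⟩)
    (simple_red S hB hdeg hG _ hη (rep S η).trace_eq) (funext fun g => by
      rw [brau_red_eq S hG _ (rep S η).trace_eq, brau_red_eq S hG _ (rep S χ).trace_eq]
      exact apply_reg_eq S hB hdeg hG hη hχ g) h1
  rw [act_red_eq] at h2
  exact Matrix.toLinAlgEquiv'.injective (h2.trans (map_zero _).symm)

theorem sig_surjective {χ : IrrCharacter G} (hχ : χ ∈ B) : Function.Surjective (sig S χ) := by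
  classical
  haveI := S.isAlgClosed
  intro X
  have hspan := CfsgLib.RepCritical.span_eq_top (red (rep S χ).ρ)
    (simple_red S hB hdeg hG _ hχ (rep S χ).trace_eq)
  rw [Subgroup.coe_top, Set.image_univ] at hspan
  obtain ⟨c, hc⟩ := (Submodule.mem_span_range_iff_exists_fun S.K).1
    (show Matrix.toLinAlgEquiv' X ∈ Submodule.span S.K (Set.range fun g => red (rep S χ).ρ g)
      from hspan ▸ Submodule.mem_top)
  refine ⟨ofFun c, Matrix.toLinAlgEquiv'.injective ?_⟩
  rw [← hc]
  exact (act_red_eq S (rep S χ).ρ (ofFun c)).symm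

theorem isNilpotent_of_sig {χ0 : IrrCharacter G} (hχ0 : χ0 ∈ B) {x : MonoidAlgebra S.K G}
    (hxe : x * EqualDegree.eK (above S) B hB = x) (h : sig S χ0 x = 0) : IsNilpotent x := by
  classical
  set res := IsLocalRing.residue S.V
  obtain ⟨Z, hZ⟩ := exists_lift_elem S x
  set q := ∏ η ∈ blockFinset B, (val S η Z).charpoly with hq
  set k := ∑ η ∈ blockFinset B, (rep S η).N with hk
  have hqm : q.map res = X ^ k := by
    rw [hq, Polynomial.map_prod, hk, ← Finset.prod_pow_eq_pow_sum]
    refine Finset.prod_congr rfl fun η hη => ?_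
    rw [← Matrix.charpoly_map, map_val, hZ, sig_eq_zero S hB hG hdeg hχ0 (mem_blockFinset.1 hη) h,
      Matrix.charpoly_zero, Fintype.card_fin]
  have h0 : aeval Z q * EqualDegree.eV (above S) B hB = 0 :=
    EqualDegree.eq_zero_of_forall_valAlg (above S) (fun η => (rep S η).ρ)
      (fun η => (rep S η).trace_eq) fun η => by
        show val S η _ = 0
        rw [map_mul, val_eV S hB η]
        by_cases hη : η ∈ B
        · rw [hq, val_aeval_prod_charpoly S hη Z, zero_mul]
        · rw [if_neg hη, mul_zero]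
  have h1 := congrArg (mapRingHom G res) h0
  rw [map_mul, map_zero, map_aeval_eq, hZ, hqm, map_pow, aeval_X] at h1
  refine ⟨k + 1, ?_⟩
  calc x ^ (k + 1) = x ^ k * (x * EqualDegree.eK (above S) B hB) := by rw [hxe, pow_succ]
    _ = x ^ k * EqualDegree.eK (above S) B hB * x := by
        rw [((EqualDegree.isClassElem_eK (above S) hB).commute x).eq, mul_assoc]
    _ = 0 := by rw [show x ^ k * EqualDegree.eK (above S) B hB = 0 from h1, zero_mul]

/-- An idempotent acting with rank one in every member, over a given diagonal matrix unit. -/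
theorem exists_rankOne {χ0 : IrrCharacter G} (hχ0 : χ0 ∈ B) (i0 : Fin (rep S χ0).N) :
    ∃ E : MonoidAlgebra S.V G,
      sig S χ0 (mapRingHom G (IsLocalRing.residue S.V) E) = Matrix.single i0 i0 1 ∧
      ∀ χ ∈ B, ∀ X, val S χ E * X * val S χ E = (X * val S χ E).trace • val S χ E := by
  classical
  set e := EqualDegree.eK (above S) B hB with he
  have hec : IsClassElem e := EqualDegree.isClassElem_eK (above S) hB
  have hee : e * e = e := EqualDegree.eK_mul_self (above S) hB
  haveI := isTwoSided_annIdeal hec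
  let π : MonoidAlgebra S.K G ⧸ annIdeal e →ₐ[S.K]
      Matrix (Fin (rep S χ0).N) (Fin (rep S χ0).N) S.K :=
    Ideal.Quotient.liftₐ (annIdeal e) (sig S χ0) fun a ha => by
      rw [← mul_one (sig S χ0 a), ← sig_eK S hB hχ0, ← map_mul, mem_annIdeal.1 ha, map_zero]
  have hπ : ∀ a, π (annMap e a) = sig S χ0 a := fun a => rfl
  obtain ⟨f, hf⟩ := sig_surjective S hB hG hdeg hχ0 (Matrix.single i0 i0 1)
  obtain ⟨i, hi, hiπ⟩ := exists_isIdempotentElem_eq_of_ker_isNilpotent π.toRingHom (fun y hy => by
      obtain ⟨a, rfl⟩ := annMap_surjective y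
      rw [← annMap_mul_self hee a]
      refine (isNilpotent_of_sig S hB hG hdeg hχ0 (x := a * e) (by rw [← he, mul_assoc, hee])
        ?_).map (annMap e)
      rw [← hπ, annMap_mul_self hee]
      exact hy)
    (Matrix.single i0 i0 1) ⟨annMap e f, (hπ f).trans hf⟩
    (by simp [IsIdempotentElem, Matrix.single_mul_single_same])
  obtain ⟨a, rfl⟩ := annMap_surjective i
  set ε := a * e with hε
  have hεε : ε * ε = ε := by
    have h := hi.eq
    rw [← map_mul, annMap_eq_iff] at h
    calc a * e * (a * e) = a * (e * a) * e := by simp only [mul_assoc]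
      _ = a * a * (e * e) := by rw [← (hec.commute a).eq]; simp only [mul_assoc]
      _ = a * e := by rw [hee, h]
  have hε0 : sig S χ0 ε = Matrix.single i0 i0 1 := by
    rw [← hπ, hε, annMap_mul_self hee]
    exact hiπ
  obtain ⟨E, hE, hEε⟩ := (above S).exists_lift_idem (ε := ε) hεε
  refine ⟨E, by rw [show mapRingHom G (IsLocalRing.residue S.V) E = ε from hEε, hε0], ?_⟩
  intro χ hχ X
  have hWW : val S χ E * val S χ E = val S χ E := by rw [← map_mul, hE]
  obtain ⟨r, hr⟩ := BrauerCharacters.exists_rank_of_idempotent hWW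
  have hred : (val S χ E).map (IsLocalRing.residue S.V) = sig S χ ε := by
    rw [map_val, show mapRingHom G (IsLocalRing.residue S.V) E = ε from hEε]
  have hr1 : r = 1 := by
    rw [← (hr S.K (IsLocalRing.residue S.V)).1, hred]
    have hP0 : sig S χ ε ≠ 0 := fun h => by
      have h' := congrFun (congrFun (hε0.symm.trans (sig_eq_zero S hB hG hdeg hχ hχ0 h)) i0) i0
      simp at h'
    obtain ⟨v, hv⟩ : ∃ v, sig S χ ε *ᵥ v ≠ 0 := by
      by_contra h
      push Not at h
      exact hP0 (Matrix.ext_iff_mulVec.2 fun v => by rw [h v, Matrix.zero_mulVec])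
    refine finrank_eq_one_iff'.2 ⟨⟨_, ⟨v, rfl⟩⟩, fun h => hv (congrArg Subtype.val h), ?_⟩
    rintro ⟨_, w, rfl⟩
    set u := sig S χ ε *ᵥ v
    obtain ⟨j, hj⟩ := Function.ne_iff.1 hv
    obtain ⟨y, hy⟩ := sig_surjective S hB hG hdeg hχ
      (Matrix.of fun a b => if b = j then (sig S χ ε *ᵥ w) a * (u j)⁻¹ else 0)
    set c := (sig S χ0 y) i0 i0
    have h1 : sig S χ (ε * y * ε - c • ε) = 0 := sig_eq_zero S hB hG hdeg hχ0 hχ (by
      rw [map_sub, map_smul, map_mul, map_mul, hε0, Matrix.smul_single, smul_eq_mul, mul_one,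
        Matrix.single_mul_mul_single, one_mul, mul_one, sub_self])
    rw [map_sub, map_smul, map_mul, map_mul, sub_eq_zero] at h1
    refine ⟨c, Subtype.ext ?_⟩
    have h2 := congrArg (fun Y => Y *ᵥ v) h1
    simp only [← Matrix.mulVec_mulVec, Matrix.smul_mulVec] at h2
    have h3 : sig S χ y *ᵥ u = sig S χ ε *ᵥ w := by
      rw [hy]
      funext a
      simp only [Matrix.mulVec, dotProduct, Matrix.of_apply, ite_mul, zero_mul,
        Finset.sum_ite_eq', Finset.mem_univ, if_true]
      rw [mul_assoc, inv_mul_cancel₀ (show u j ≠ 0 from hj), mul_one]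
    have h4 : sig S χ ε *ᵥ (sig S χ ε *ᵥ w) = sig S χ ε *ᵥ w := by
      rw [Matrix.mulVec_mulVec, ← map_mul, hεε]
    rw [h3, h4] at h2
    exact h2.symm
  refine Matrix.map_injective (f := S.V.subtype) Subtype.val_injective ?_
  show (S.V.subtype.mapMatrix (val S χ E * X * val S χ E)) = _
  rw [map_mul, map_mul]
  show (val S χ E).map S.V.subtype * X.map S.V.subtype * (val S χ E).map S.V.subtype = _
  rw [mul_mul_eq_trace_smul ((hr ℂ S.V.subtype).1.trans hr1)]
  ext i j
  simp [Matrix.trace, Matrix.mul_apply]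

/-- The matrix units give a decomposition of the identity in every member. -/
theorem exists_decomp {χ0 : IrrCharacter G} (hχ0 : χ0 ∈ B) :
    ∃ (m : ℕ) (E : MonoidAlgebra S.V G) (a b : Fin m → MonoidAlgebra S.V G), ∀ χ ∈ B,
      (∀ X, val S χ E * X * val S χ E = (X * val S χ E).trace • val S χ E) ∧
        ∑ j, val S χ (a j) * val S χ E * val S χ (b j) = 1 := by
  classical
  set res := IsLocalRing.residue S.V
  have hN : (rep S χ0).N = n := realisation_dim S hdeg _ hχ0 (rep S χ0).trace_eq
  let i0 : Fin (rep S χ0).N := ⟨0, hN ▸ hdeg χ0 hχ0 ▸ (charDegree_spec χ0).2.1⟩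
  obtain ⟨E, hE0, hE⟩ := exists_rankOne S hB hG hdeg hχ0 i0
  choose α hα using fun j => sig_surjective S hB hG hdeg hχ0 (Matrix.single j i0 1)
  choose β hβ using fun j => sig_surjective S hB hG hdeg hχ0 (Matrix.single i0 j 1)
  choose A hA using fun j => exists_lift_elem S (α j)
  choose C hC using fun j => exists_lift_elem S (β j)
  set U := ∑ j, A j * E * C j with hU
  have hred : ∀ χ ∈ B, (val S χ U).map res = 1 := by
    intro χ hχ
    rw [map_val, ← sub_eq_zero, ← map_one (sig S χ), ← map_sub]
    refine sig_eq_zero S hB hG hdeg hχ0 hχ ?_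
    rw [map_sub, map_one, sub_eq_zero, hU, map_sum, map_sum,
      Finset.sum_congr rfl (g := fun j => Matrix.single j j (1 : S.K)) fun j _ => by
        rw [map_mul, map_mul, map_mul, map_mul, hA, hC, hE0, hα, hβ,
          Matrix.single_mul_single_same, Matrix.single_mul_single_same, one_mul, one_mul]]
    exact (Matrix.sum_single_eq_diagonal (fun _ => (1 : S.K))).trans Matrix.diagonal_one
  set q := ∏ η ∈ blockFinset B, (val S η U).charpoly with hq
  have hq0 : IsUnit (q.coeff 0) := by
    rw [← IsLocalRing.residue_ne_zero_iff_isUnit, ← Polynomial.coeff_map, hq, Polynomial.map_prod,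
      coeff_zero_eq_eval_zero, eval_prod]
    refine Finset.prod_ne_zero_iff.2 fun η hη => ?_
    rw [← Matrix.charpoly_map, hred η (mem_blockFinset.1 hη), Matrix.charpoly_one]
    simp
  obtain ⟨u, hu⟩ := hq0
  set U' := (-(↑u⁻¹ : S.V)) • aeval U q.divX with hU'
  have hinv : ∀ χ ∈ B, val S χ U' * val S χ U = 1 := by
    intro χ hχ
    have h := val_aeval_prod_charpoly S hχ U
    rw [← hq, ← X_mul_divX_add q, map_add, map_mul, aeval_X, aeval_C, map_add, map_mul,
      AlgHom.commutes, add_eq_zero_iff_eq_neg] at h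
    apply mul_eq_one_comm.1
    rw [hU', map_smul, mul_smul_comm, h, ← hu, Algebra.algebraMap_eq_smul_one, ← neg_smul,
      smul_smul, neg_mul_neg, Units.inv_mul, one_smul]
  refine ⟨_, E, fun j => U' * A j, C, fun χ hχ => ⟨hE χ hχ, ?_⟩⟩
  rw [← hinv χ hχ, hU, map_sum, Finset.mul_sum]
  exact Finset.sum_congr rfl fun j _ => by simp only [map_mul, mul_assoc]

/-- Some element acts in every member as the scalar value at `g`. -/
theorem exists_scalar_elem (g : G) : ∃ y : MonoidAlgebra S.V G, ∀ χ ∈ B,
    val S χ y = ((rep S χ).ρ g).trace • 1 := by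
  obtain ⟨χ0, hχ0⟩ := isPBlock_nonempty hB
  obtain ⟨m, E, a, b, h⟩ := exists_decomp S hB hG hdeg hχ0
  refine ⟨∑ j, a j * (∑ k, E * (b k * single g 1 * a k) * E) * b j, fun χ hχ => ?_⟩
  obtain ⟨hE, hone⟩ := h χ hχ
  have hin : val S χ (∑ k, E * (b k * single g 1 * a k) * E) =
      ((rep S χ).ρ g).trace • val S χ E := by
    rw [map_sum]
    simp only [map_mul, hE, val_single, one_smul]
    rw [← Finset.sum_smul]
    congr 1
    rw [show ((rep S χ).ρ g).trace = ((rep S χ).ρ g *
      ∑ j, val S χ (a j) * val S χ E * val S χ (b j)).trace by rw [hone, mul_one],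
      Finset.mul_sum, Matrix.trace_sum]
    refine Finset.sum_congr rfl fun k _ => ?_
    simp only [mul_assoc]
    rw [Matrix.trace_mul_comm (val S χ (b k))]
    simp only [mul_assoc]
  rw [map_sum]
  simp only [map_mul, hin, mul_smul_comm, smul_mul_assoc]
  rw [← Finset.smul_sum, hone]

/-- The scaled sums of products of two values are integral. -/
theorem pair_mem (g h : G) : (n : ℂ) * (∑ χ ∈ blockFinset B, (χ : G → ℂ) g * (χ : G → ℂ) h) /
    (Nat.card G : ℂ) ∈ S.V := by
  classical
  haveI := Fintype.ofFinite (IrrCharacter G)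
  obtain ⟨y, hy⟩ := exists_scalar_elem S hB hG hdeg g
  set z := y * EqualDegree.eV (above S) B hB * single h 1 with hz
  have hc := EqualDegree.card_mul_coeff (above S) (fun χ => (rep S χ).ρ)
    (fun χ => (rep S χ).trace_eq) z
  have hne : (Nat.card G : ℂ) ≠ 0 := Nat.cast_ne_zero.2 Nat.card_pos.ne'
  suffices hv : (n : ℂ) * (∑ χ ∈ blockFinset B, (χ : G → ℂ) g * (χ : G → ℂ) h) /
      (Nat.card G : ℂ) = ((z.coeff 1 : S.V) : ℂ) from hv ▸ (z.coeff 1).2
  rw [div_eq_iff hne, mul_comm ((z.coeff 1 : S.V) : ℂ), hc, Finset.mul_sum]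
  refine Finset.sum_subset_zero_on_sdiff (Finset.subset_univ _) (fun χ hχ => ?_) fun χ hχ => ?_
  · have hχ' : χ ∉ B := by simpa using hχ
    show _ * (((val S χ z).trace : S.V) : ℂ) = 0
    rw [hz, map_mul, map_mul, val_eV S hB χ, if_neg hχ', mul_zero, zero_mul, Matrix.trace_zero]
    simp
  · have hχ' := mem_blockFinset.1 hχ
    show _ = _ * (((val S χ z).trace : S.V) : ℂ)
    rw [hz, map_mul, map_mul, val_eV S hB χ, if_pos hχ', mul_one, hy χ hχ', val_single, one_smul,
      smul_mul_assoc, one_mul, Matrix.trace_smul, smul_eq_mul, MulMemClass.coe_mul,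
      (rep S χ).trace_eq, (rep S χ).trace_eq, (charDegree_spec χ).1, hdeg χ hχ']

end CfsgLib.EqualDegrees
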