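import Cfsg.Agent.Lib.EqualDegrees.Central
import Cfsg.Agent.Lib.CharTheory.Orthogonality
import Mathlib.LinearAlgebra.Matrix.Rank

/-!
# The bilinear form of the products of class sums weighted at the regular classes

`tw w` is the matrix of the values of a weight `w` on the products of two class sums. For a block
with equal degrees and the regular central character as weight, it has residual rank at least the
number of members of the block.
-/

set_option autoImplicit false
set_option linter.style.haveILetI false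
set_option linter.unusedSectionVars false

noncomputable section

namespace CfsgLib.EqualDegrees

open Cfsg CfsgLib.Blocks CfsgLib.IBr CfsgLib.IBr.PSys CfsgLib.BrauerCharacters
  CfsgLib.Jordan.CyclicDefect MonoidAlgebra Module Finset
open scoped Matrix ComplexConjugate

universe u

variable {G : Type u} [Group G] [Fintype G]

open scoped Classical in
/-- The coefficient at `x` of the product of two class sums. -/
def cnt (R : Type*) [CommRing R] (K L : ConjClasses G) (x : G) : R :=
  ∑ y : G, if ConjClasses.mk y = K ∧ ConjClasses.mk (y⁻¹ * x) = L then 1 else 0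

theorem map_cnt {R T : Type*} [CommRing R] [CommRing T] (f : R →+* T) (K L : ConjClasses G)
    (x : G) : f (cnt R K L x) = cnt T K L x := by
  simp [cnt, apply_ite f]

/-- The values of a weight on the products of two class sums. -/
def tw {R : Type*} [CommRing R] [Fintype (ConjClasses G)] (w : ConjClasses G → R) :
    Matrix (ConjClasses G) (ConjClasses G) R :=
  Matrix.of fun K L => ∑ c, cnt R K L c.out * w c

theorem map_tw {R T : Type*} [CommRing R] [CommRing T] [Fintype (ConjClasses G)] (f : R →+* T)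
    (w : ConjClasses G → R) : (tw w).map f = tw fun c => f (w c) := by
  ext K L
  simp [tw, map_sum, map_cnt]

theorem mk_out (c : ConjClasses G) : ConjClasses.mk c.out = c := Quotient.out_eq c

theorem isConj_out_iff (c : ConjClasses G) (y : G) :
    IsConj c.out y ↔ ConjClasses.mk y = c := by
  rw [← ConjClasses.mk_eq_mk_iff_isConj, mk_out, eq_comm]

theorem centralChar_mul [Fintype (ConjClasses G)] (χ : IrrCharacter G) (K L : ConjClasses G) :
    centralChar (χ : G → ℂ) K.out * centralChar (χ : G → ℂ) L.out =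
      ∑ c : ConjClasses G, cnt ℂ K L c.out * centralChar (χ : G → ℂ) c.out := by
  classical
  have hcl := CharTheory.IsIrrCharacter.isClassFunction χ.2
  rw [← omega_classSum hcl K.out, ← omega_classSum hcl L.out,
    ← omega_mul χ.2 (isClassElem_classSum _), omega_eq_sum_classes hcl
      ((isClassElem_classSum _).mul (isClassElem_classSum _))]
  refine Finset.sum_congr rfl fun c _ => ?_
  congr 1
  rw [coeff_mul_eq_sum, cnt]
  refine Finset.sum_congr rfl fun y _ => ?_
  simp only [coeff_classSum, isConj_out_iff, ite_mul, one_mul, zero_mul, ← ite_and]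

/-- Column orthogonality through central characters. -/
theorem sum_centralChar_mul [Fintype (ConjClasses G)] (χ η : IrrCharacter G)
    [Decidable (χ = η)] :
    ∑ c : ConjClasses G, centralChar (χ : G → ℂ) c.out * (η : G → ℂ) c.out⁻¹ =
      if χ = η then (Nat.card G : ℂ) / (χ : G → ℂ) 1 else 0 := by
  classical
  have hη := CharTheory.IsIrrCharacter.isClassFunction η.2
  let z : MonoidAlgebra ℂ G := ofFun fun g => (η : G → ℂ) g⁻¹
  have hz : IsClassElem z := isClassElem_ofFun fun h x => by
    rw [show (h * x * h⁻¹)⁻¹ = h * x⁻¹ * h⁻¹ by group]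
    exact hη x⁻¹ h
  have h := omega_eq_sum_classes (CharTheory.IsIrrCharacter.isClassFunction χ.2) hz
  simp only [z, coeff_ofFun] at h
  rw [show ∑ c : ConjClasses G, centralChar (χ : G → ℂ) c.out * (η : G → ℂ) c.out⁻¹ =
    omega (χ : G → ℂ) z by rw [h]; exact Finset.sum_congr rfl fun c _ => mul_comm _ _,
    omega_eq_sum]
  have hi : (∑ g, z.coeff g * (χ : G → ℂ) g) =
      (Nat.card G : ℂ) * classInner (χ : G → ℂ) (η : G → ℂ) := by
    rw [CharTheory.classInner_eq_sum_inv (CharTheory.IsIrrCharacter.isCharacter η.2),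
      ← mul_assoc, mul_inv_cancel₀ (Nat.cast_ne_zero.2 Nat.card_pos.ne'), one_mul]
    exact Finset.sum_congr rfl fun g _ => by simp [z, mul_comm]
  rw [hi, CharTheory.classInner_irrCharacter]
  by_cases hχη : χ = η
  · simp [hχη]
  · simp [hχη]

variable {p : ℕ} {M : Ideal AlgInt} [M.IsPrime] (S : PSys p M)

/-- A matrix over the valuation ring has residual rank at most its rank. -/
theorem rank_map_residue_le {m l : Type*} [Fintype m] [Fintype l] (A : Matrix m l S.V) :
    (A.map (IsLocalRing.residue S.V)).rank ≤ (A.map S.V.subtype).rank := by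
  classical
  set res := IsLocalRing.residue S.V
  rw [Matrix.rank_eq_finrank_span_cols, Matrix.rank_eq_finrank_span_cols]
  obtain ⟨b, hb, hspan, hli⟩ := exists_linearIndependent S.K (Set.range (A.map res).col)
  haveI : Fintype b := ((Set.finite_range _).subset hb).fintype
  choose f hf using fun v : b => hb v.2
  rw [← hspan, finrank_span_set_eq_card hli, Set.toFinset_card]
  have hfj : Function.Injective f := fun v w h => Subtype.ext (by rw [← hf v, ← hf w, h])
  have hC : LinearIndependent ℂ fun v : b => (A.map S.V.subtype).col (f v) := by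
    rw [linearIndependent_iff']
    intro I c hc i hi
    by_contra hne
    obtain ⟨i₀, hi₀, hmax⟩ := Finset.exists_max_image I (fun j => S.V.valuation (c j)) ⟨i, hi⟩
    have h0 : c i₀ ≠ 0 := fun h => by
      have := hmax i hi
      simp only [h, map_zero, le_zero_iff, map_eq_zero] at this
      exact hne this
    have hmem : ∀ j : I, c j / c i₀ ∈ S.V := fun j => by
      rw [← ValuationSubring.valuation_le_one_iff, map_div₀]
      exact div_le_one_of_le₀ (hmax j j.2) zero_le
    let d : b → S.V := fun j => if hj : j ∈ I then ⟨_, hmem ⟨j, hj⟩⟩ else 0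
    have hd : ∀ j ∈ I, (d j : ℂ) = c j / c i₀ := fun j hj => by simp [d, hj]
    have hsum : ∑ j ∈ I, res (d j) • (j : m → S.K) = 0 := by
      funext a
      have e : ∑ j ∈ I, d j * A a (f j) = 0 := Subtype.ext (by
        have h := congrFun hc a
        simp only [Finset.sum_apply, Pi.smul_apply, smul_eq_mul, Pi.zero_apply,
          Matrix.col_apply, Matrix.map_apply] at h
        push_cast
        rw [Finset.sum_congr rfl (g := fun j => (c i₀)⁻¹ * (c j * (A a (f j) : ℂ))) fun j hj => by
          rw [hd j hj]; ring, ← Finset.mul_sum]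
        exact mul_eq_zero_of_right _ h)
      have h := congrArg res e
      rw [map_sum, map_zero] at h
      rw [Finset.sum_apply, Pi.zero_apply, ← h]
      refine Finset.sum_congr rfl fun j _ => ?_
      rw [map_mul, Pi.smul_apply, smul_eq_mul]
      congr 1
      exact (congrFun (hf j) a).symm
    have h1 := linearIndependent_iff'.1 hli I (fun j => res (d j)) hsum i₀ hi₀
    rw [show d i₀ = 1 from Subtype.ext (by rw [hd i₀ hi₀, div_self h0]; rfl), map_one] at h1
    exact one_ne_zero h1
  rw [← finrank_span_eq_card hC]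
  refine Submodule.finrank_mono (Submodule.span_mono ?_)
  rintro _ ⟨v, rfl⟩
  exact ⟨f v, rfl⟩

open scoped Classical in
/-- The central character at the regular classes. -/
def regW (θ : IrrCharacter G) (c : ConjClasses G) : S.V :=
  if p ∣ orderOf c.out then 0
  else ⟨centralChar (θ : G → ℂ) c.out, S.hV (memLocalRing_centralChar θ c.out)⟩

open scoped Classical in
theorem coe_regW (θ : IrrCharacter G) (c : ConjClasses G) :
    (regW S θ c : ℂ) = if p ∣ orderOf c.out then 0 else centralChar (θ : G → ℂ) c.out := by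
  rw [regW]
  split_ifs <;> rfl

variable [Fintype (ConjClasses G)]

theorem mul_tw_eq (θ : IrrCharacter G) (s : Finset (IrrCharacter G)) (b : IrrCharacter G → ℂ)
    (N : ℂ)
    (h : ∀ c : ConjClasses G,
      ∑ ξ ∈ s, b ξ * centralChar (ξ : G → ℂ) c.out = N * (regW S θ c : ℂ))
    (K L : ConjClasses G) :
    N * ((tw (regW S θ)).map S.V.subtype) K L =
      ∑ ξ ∈ s, b ξ * (centralChar (ξ : G → ℂ) K.out * centralChar (ξ : G → ℂ) L.out) := by
  rw [map_tw]
  simp only [tw, Matrix.of_apply, Finset.mul_sum, centralChar_mul]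
  rw [Finset.sum_comm (s := s)]
  refine Finset.sum_congr rfl fun c _ => ?_
  rw [mul_left_comm N, show S.V.subtype (regW S θ c) = (regW S θ c : ℂ) from rfl, ← h c,
    Finset.mul_sum]
  exact Finset.sum_congr rfl fun ξ _ => mul_left_comm _ _ _

variable {B : Set (IrrCharacter G)} (hB : IsPBlock M B) [hp : Fact p.Prime] (hG : S.Fits G)
  {n : ℕ} (hdeg : ∀ χ ∈ B, charDegree (χ : G → ℂ) = n)
include hB hG hdeg

/-- The residual rank of the regular form is at least the number of members. -/
theorem card_le_rank {θ : IrrCharacter G} (hθ : θ ∈ B) :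
    Nat.card B ≤ (tw fun c => IsLocalRing.residue S.V (regW S θ c)).rank := by
  classical
  obtain ⟨hk, hsing⟩ := card_eq S hB hdeg hG
  set N := Nat.card B with hN
  have hn : 0 < n := hdeg θ hθ ▸ (charDegree_spec θ).2.1
  have hn0 : (n : ℂ) ≠ 0 := Nat.cast_ne_zero.2 hn.ne'
  have hG0 : (Nat.card G : ℂ) ≠ 0 := Nat.cast_ne_zero.2 Nat.card_pos.ne'
  have hN0 : (N : ℂ) ≠ 0 := Nat.cast_ne_zero.2 (hk ▸ (pow_pos hp.out.pos _).ne')
  have hT : ∀ c : ConjClasses G, ∑ ξ ∈ blockFinset B, (1 : ℂ) * centralChar (ξ : G → ℂ) c.out =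
      (N : ℂ) * (regW S θ c : ℂ) := by
    intro c
    rw [coe_regW]
    split_ifs with hc
    · rw [mul_zero, Finset.sum_congr rfl (g := fun ξ : IrrCharacter G =>
        ((Subgroup.centralizer ({c.out} : Set G)).index : ℂ) / n * (ξ : G → ℂ) c.out) fun ξ hξ => by
        rw [one_mul, centralChar, (charDegree_spec ξ).1, hdeg ξ (mem_blockFinset.1 hξ)]; ring,
        ← Finset.mul_sum, hsing _ hc, mul_zero]
    · rw [Finset.sum_congr rfl (g := fun _ => centralChar (θ : G → ℂ) c.out) fun ξ hξ => by
        have h := apply_reg_eq S hB hdeg hG (mem_blockFinset.1 hξ) hθ c.out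
        rw [(hG.reg_eq_self_iff _).2 hc] at h
        rw [one_mul, centralChar, centralChar, h, (charDegree_spec ξ).1, (charDegree_spec θ).1,
          hdeg ξ (mem_blockFinset.1 hξ), hdeg θ hθ],
        Finset.sum_const, card_blockFinset, nsmul_eq_mul]
  set T := tw (regW S θ) with hTdef
  let X : Matrix ↥(blockFinset B) (ConjClasses G) ℂ :=
    Matrix.of fun χ c => centralChar ((χ : IrrCharacter G) : G → ℂ) c.out
  have hNT : (N : ℂ) • T.map S.V.subtype = Xᵀ * X := by
    ext K L
    rw [Matrix.smul_apply, smul_eq_mul, mul_tw_eq S θ (blockFinset B) (fun _ => 1) N hT,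
      Matrix.mul_apply, ← Finset.sum_coe_sort (blockFinset B)]
    simp [X]
  let C' : Matrix (ConjClasses G) (ConjClasses G) S.V :=
    Matrix.of fun K L => ⟨_, pair_mem S hB hG hdeg K.out⁻¹ L.out⁻¹⟩
  have hXCX : X * C'.map S.V.subtype * Xᵀ = ((Nat.card G : ℂ) / n) • 1 := by
    ext χ ψ
    simp only [Matrix.mul_apply, Matrix.transpose_apply, Matrix.map_apply, X, C', Matrix.of_apply,
      ValuationSubring.subtype_apply]
    rw [show ∑ L : ConjClasses G, (∑ K : ConjClasses G,
        centralChar ((χ : IrrCharacter G) : G → ℂ) K.out *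
          ((n : ℂ) * (∑ η ∈ blockFinset B, (η : G → ℂ) K.out⁻¹ * (η : G → ℂ) L.out⁻¹) /
            (Nat.card G : ℂ))) * centralChar ((ψ : IrrCharacter G) : G → ℂ) L.out =
        ∑ η ∈ blockFinset B, (n : ℂ) / (Nat.card G : ℂ) *
          (∑ K : ConjClasses G, centralChar ((χ : IrrCharacter G) : G → ℂ) K.out *
            (η : G → ℂ) K.out⁻¹) *
          (∑ L : ConjClasses G, centralChar ((ψ : IrrCharacter G) : G → ℂ) L.out *
            (η : G → ℂ) L.out⁻¹) from ?_]
    · simp only [sum_centralChar_mul]
      rw [Finset.sum_eq_single (χ : IrrCharacter G) (fun η _ hη => by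
          rw [if_neg (Ne.symm hη), mul_zero, zero_mul]) (fun h => absurd χ.2 h), if_pos rfl,
        (charDegree_spec (χ : IrrCharacter G)).1, hdeg _ (mem_blockFinset.1 χ.2)]
      by_cases h : χ = ψ
      · subst h
        rw [if_pos rfl, Matrix.smul_apply, Matrix.one_apply_eq, smul_eq_mul, mul_one,
          (charDegree_spec (χ : IrrCharacter G)).1, hdeg _ (mem_blockFinset.1 χ.2)]
        field_simp
      · rw [if_neg fun e => h (Subtype.ext e.symm), Matrix.smul_apply, Matrix.one_apply_ne h]
        simp
    · simp only [Finset.mul_sum, Finset.sum_mul, Finset.sum_div]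
      rw [Finset.sum_comm (s := blockFinset B)]
      refine Finset.sum_congr rfl fun L _ => ?_
      rw [Finset.sum_comm]
      exact Finset.sum_congr rfl fun η _ => Finset.sum_congr rfl fun K _ => by ring
  -- the scalar
  obtain ⟨ε, hεu, hεN⟩ : ∃ ε : S.V, IsUnit ε ∧ (Nat.card G : ℂ) / n = (N : ℂ) * (ε : ℂ) := by
    have hd := defect_add_degree (p := p) hθ
    rw [blockHeight_eq_zero hB hdeg hθ, add_zero, hdeg θ hθ] at hd
    have hunit : ∀ j : ℕ, ¬ p ∣ j → IsUnit (j : S.V) := fun j hj => by
      rw [← IsLocalRing.residue_ne_zero_iff_isUnit, map_natCast]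
      exact S.natCast_ne_zero hj
    obtain ⟨w, hw⟩ := hunit _ (Nat.not_dvd_ordCompl hp.out hn.ne')
    refine ⟨(ordCompl[p] (Nat.card G) : ℕ) * (↑w⁻¹ : S.V),
      (hunit _ (Nat.not_dvd_ordCompl hp.out Nat.card_pos.ne')).mul w⁻¹.isUnit, ?_⟩
    have hwC : ((↑w⁻¹ : S.V) : ℂ) * ((ordCompl[p] n : ℕ) : ℂ) = 1 := by
      have h := congrArg Subtype.val (Units.inv_mul w)
      rw [hw] at h
      push_cast at h
      exact h
    have e : Nat.card G * ordCompl[p] n = N * n * ordCompl[p] (Nat.card G) := by
      have h1 := Nat.ordProj_mul_ordCompl_eq_self (Nat.card G) p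
      have h2 := Nat.ordProj_mul_ordCompl_eq_self n p
      generalize ordCompl[p] (Nat.card G) = A at h1 ⊢
      generalize ordCompl[p] n = C at h2 ⊢
      rw [← hd, pow_add] at h1
      rw [hk, ← h1]
      conv_rhs => arg 1; arg 2; rw [← h2]
      ring
    have e' : (Nat.card G : ℂ) * ((ordCompl[p] n : ℕ) : ℂ) =
        (N : ℂ) * n * ((ordCompl[p] (Nat.card G) : ℕ) : ℂ) := by exact_mod_cast e
    rw [div_eq_iff hn0, MulMemClass.coe_mul]
    push_cast
    linear_combination ((↑w⁻¹ : S.V) : ℂ) * e' - (Nat.card G : ℂ) * hwC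
  -- the idempotent
  obtain ⟨w, hw⟩ := hεu
  set P := (↑w⁻¹ : S.V) • (C' * T) with hP
  have hTCT : T * C' * T = ε • T := by
    refine Matrix.map_injective (f := S.V.subtype) Subtype.val_injective ?_
    refine smul_right_injective _ (mul_ne_zero hN0 hN0) ?_
    show ((N : ℂ) * N) • S.V.subtype.mapMatrix (T * C' * T) =
      ((N : ℂ) * N) • S.V.subtype.mapMatrix (ε • T)
    rw [map_mul, map_mul]
    show ((N : ℂ) * N) • (T.map S.V.subtype * C'.map S.V.subtype * T.map S.V.subtype) = _
    rw [show ((N : ℂ) * N) • (T.map S.V.subtype * C'.map S.V.subtype * T.map S.V.subtype) =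
      ((N : ℂ) • T.map S.V.subtype) * C'.map S.V.subtype * ((N : ℂ) • T.map S.V.subtype) by
        simp only [smul_mul_assoc, mul_smul_comm, smul_smul], hNT,
      show Xᵀ * X * C'.map S.V.subtype * (Xᵀ * X) = Xᵀ * (X * C'.map S.V.subtype * Xᵀ) * X by
        simp only [Matrix.mul_assoc], hXCX, Matrix.mul_smul, Matrix.mul_one, Matrix.smul_mul,
      hεN, ← hNT]
    ext i j
    simp
    ring
  have hPP : P * P = P := by
    rw [hP, smul_mul_assoc, mul_smul_comm, show C' * T * (C' * T) = C' * (T * C' * T) by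
      simp only [Matrix.mul_assoc], hTCT, Matrix.mul_smul, smul_smul, smul_smul, ← hw, mul_assoc,
      Units.inv_mul, mul_one]
  obtain ⟨r, hr⟩ := BrauerCharacters.exists_rank_of_idempotent hPP
  have hrN : r = N := by
    apply Nat.cast_injective (R := ℂ)
    rw [← (hr ℂ S.V.subtype).2]
    have h1 : (P.map S.V.subtype).trace =
        ((↑w⁻¹ : S.V) : ℂ) * ((C'.map S.V.subtype) * (T.map S.V.subtype)).trace := by
      rw [show P.map S.V.subtype = ((↑w⁻¹ : S.V) : ℂ) • (C'.map S.V.subtype * T.map S.V.subtype) by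
        rw [hP, ← Matrix.map_mul]; ext i j; simp, Matrix.trace_smul, smul_eq_mul]
    have h2 : (N : ℂ) * ((C'.map S.V.subtype) * (T.map S.V.subtype)).trace =
        (N : ℂ) * ((N : ℂ) * (ε : ℂ)) := by
      rw [← smul_eq_mul, ← Matrix.trace_smul, ← Matrix.mul_smul, hNT, ← Matrix.mul_assoc,
        Matrix.trace_mul_comm, ← Matrix.mul_assoc, hXCX, Matrix.trace_smul, Matrix.trace_one,
        Fintype.card_coe, card_blockFinset, ← hN, hεN, smul_eq_mul]
      ring
    rw [h1, mul_left_cancel₀ hN0 h2, ← hw, mul_left_comm,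
      show ((↑w⁻¹ : S.V) : ℂ) * ((↑w : S.V) : ℂ) = 1 from congrArg Subtype.val (Units.inv_mul w),
      mul_one]
  have hres := (hr S.K (IsLocalRing.residue S.V)).1
  rw [hrN] at hres
  rw [← map_tw (IsLocalRing.residue S.V), ← hres, hP]
  show (((↑w⁻¹ : S.V) • (C' * T)).map (IsLocalRing.residue S.V)).rank ≤ _
  rw [show ((↑w⁻¹ : S.V) • (C' * T)).map (IsLocalRing.residue S.V) =
    ((IsLocalRing.residue S.V (↑w⁻¹ : S.V)) • C'.map (IsLocalRing.residue S.V)) *
      T.map (IsLocalRing.residue S.V) by
    rw [Matrix.smul_mul, ← Matrix.map_mul]; ext i j; simp [Matrix.mul_apply]]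
  exact Matrix.rank_mul_le_right _ _

end CfsgLib.EqualDegrees
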