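import Cfsg.Agent.Lib.IBr.BlockIBr
import Cfsg.Agent.Lib.IBr.Reduction
import Cfsg.Agent.Lib.BrauerCharacters.Consequences
import Cfsg.Agent.Lib.EqualDegree.Reps

/-!
# Blocks in which all degrees are equal: one Brauer character

If all members of a block have the same degree `n`, then every simple module of the block has
dimension divisible by `n` (its Brauer character is an integral combination of the block), so
every reduced member is simple; orthogonality then leaves only one Brauer character, and the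
block has exactly as many members as its defect group has elements.
-/

set_option autoImplicit false
set_option linter.style.haveILetI false
set_option linter.unusedSectionVars false

noncomputable section

namespace CfsgLib.EqualDegrees

open Cfsg CfsgLib.Blocks CfsgLib.IBr CfsgLib.IBr.PSys CfsgLib.BrauerCharacters
  CfsgLib.Jordan.CyclicDefect MonoidAlgebra Module Finset

universe u

variable {p : ℕ} {M : Ideal AlgInt} [M.IsPrime] (S : PSys p M)

/-- The valuation data of a system. -/
abbrev above : Above M := ⟨S.V, fun _ h => S.hV h, fun _ h => S.hnu h⟩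

variable {G : Type u} [Group G] [Fintype G]

theorem act_red_eq {d : ℕ} (A : G →* Matrix (Fin d) (Fin d) S.V)
    (x : MonoidAlgebra (above S).K G) :
    act (red A) (fun g => x.coeff g) =
      Matrix.toLinAlgEquiv' (redAlg (above S) A x) := by
  classical
  induction x using MonoidAlgebra.induction_linear with
  | zero => simp [act]
  | add a b ha hb =>
    rw [map_add, map_add, ← ha, ← hb]
    simp [act, add_smul, Finset.sum_add_distrib]
  | single g c =>
    rw [redAlg_single, map_smul, act, Finset.sum_eq_single g]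
    · simp [red_apply]
    · intro h _ hh
      simp [Ne.symm hh]
    · simp

variable {B : Set (IrrCharacter G)} (hB : IsPBlock M B)

/-- The coefficients of the block idempotent in the residue field. -/
def eS (g : G) : S.K :=
  IsLocalRing.residue S.V ⟨blockCoeff B g, S.hV (memLocalRing_blockCoeff hB g)⟩

theorem eS_eq (g : G) :
    eS S hB g = (EqualDegree.eK (above S) B hB).coeff g := by
  rw [EqualDegree.eK, coeff_mapRingHom]
  refine congrArg (IsLocalRing.residue S.V) (Subtype.ext ?_)
  exact (EqualDegree.coe_coeff_eV (above S) hB g).symm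

open scoped Classical in
theorem act_red_eS {d : ℕ} (A : G →* Matrix (Fin d) (Fin d) S.V) {χ : IrrCharacter G}
    (htr : ∀ g, (((A g).trace : S.V) : ℂ) = (χ : G → ℂ) g) :
    act (red A) (eS S hB) = if χ ∈ B then 1 else 0 := by
  rw [show eS S hB = fun g => (EqualDegree.eK (above S) B hB).coeff g from funext (eS_eq S hB),
    act_red_eq, EqualDegree.redAlg_eK (above S) hB A (χ := χ) htr]
  split_ifs <;> simp

theorem brau_red_eq (hG : S.Fits G) {d : ℕ} (A : G →* Matrix (Fin d) (Fin d) S.V)
    {χ : IrrCharacter G} (htr : ∀ g, (((A g).trace : S.V) : ℂ) = (χ : G → ℂ) g) (g : G) :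
    S.brau (red A) g = (χ : G → ℂ) (S.reg g) := by
  rw [hG.brau_red, ← htr]
  simp [Matrix.trace]

open scoped Classical in
theorem exists_list (hG : S.Fits G) (χ : IrrCharacter G) :
    ∃ l : List (S.CoordRep G), (∀ s ∈ l, Simple s.2 ∧
        act s.2 (eS S hB) = if χ ∈ B then 1 else 0) ∧
      ∀ g, (χ : G → ℂ) (S.reg g) = (l.map fun s => S.brau s.2 g).sum := by
  obtain ⟨L⟩ := exists_localRep (above S) χ
  obtain ⟨l, hl, hsum, hact⟩ := hG.exists_factors _ (Fin L.N → S.K) (red L.ρ)
    (Module.finrank_fin_fun S.K)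
  refine ⟨l, fun s hs => ⟨hl s hs, ?_⟩, fun g => ?_⟩
  · have h := hact (eS S hB) (if χ ∈ B then 1 else 0) (by
      rw [act_red_eS S hB L.ρ L.trace_eq]
      split_ifs <;> simp) s hs
    rw [h]
    split_ifs <;> simp
  · rw [← hsum, brau_red_eq S hG L.ρ L.trace_eq]

/-- The Brauer character of a simple module of the block is an integral combination of the
block. -/
theorem exists_block_comb (hG : S.Fits G) {s : S.CoordRep G} (hs : Simple s.2)
    (he : act s.2 (eS S hB) = 1) :
    ∃ a : IrrCharacter G → ℤ, ∀ g,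
      S.brau s.2 g = ∑ χ ∈ blockFinset B, (a χ : ℂ) * (χ : G → ℂ) (S.reg g) := by
  classical
  haveI := Fintype.ofFinite (IrrCharacter G)
  obtain ⟨a, ha⟩ := CfsgLib.CharTheory.isGeneralizedCharacter_iff_exists_sum.1
    (hG.isGeneralizedCharacter_brau s.2)
  refine ⟨a, ?_⟩
  choose l hl hsum using exists_list S hB hG
  set P : S.K → Set (G → ℂ) := fun c =>
    {F | ∃ t : S.CoordRep G, Simple t.2 ∧ act t.2 (eS S hB) = c • 1 ∧ S.brau t.2 = F} with hP
  have hli : LinearIndependent ℂ (fun F : (P 1 ∪ P 0 : Set (G → ℂ)) => (F : G → ℂ)) := by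
    rw [linearIndependent_iff']
    intro I c hc F hF
    have hrep : ∀ F : (P 1 ∪ P 0 : Set (G → ℂ)),
        ∃ t : S.CoordRep G, Simple t.2 ∧ S.brau t.2 = (F : G → ℂ) := by
      rintro ⟨F, ⟨t, h1, -, h3⟩ | ⟨t, h1, -, h3⟩⟩ <;> exact ⟨t, h1, h3⟩
    choose t ht htb using hrep
    refine hG.eq_zero_of_sum (fun F : I => t F.1) (fun F => ht _) (fun F F' h => ?_)
      (fun F => c F.1) (fun g => ?_) ⟨F, hF⟩
    · exact Subtype.ext (Subtype.ext ((htb _).symm.trans (h.trans (htb _))))
    · have h := congrFun hc g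
      simp only [Finset.sum_apply, Pi.smul_apply, smul_eq_mul, Pi.zero_apply] at h
      rw [← h, ← Finset.sum_coe_sort I]
      exact Finset.sum_congr rfl fun F _ => by rw [htb]
  have hdisj : Disjoint (P 1) (P 0) := by
    rw [Set.disjoint_left]
    rintro F ⟨t, ht, ht1, htF⟩ ⟨t', -, ht0, ht'F⟩
    have h := hG.act_eq_zero_of_brau_eq ht (htF.trans ht'F.symm)
      (ht0.trans (zero_smul _ _))
    rw [ht1, one_smul] at h
    exact act_one_ne_zero ht h
  have hspan : Disjoint (Submodule.span ℂ (P 1)) (Submodule.span ℂ (P 0)) := by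
    have h := hli.disjoint_span_image (s := {F | (F : G → ℂ) ∈ P 1})
      (t := {F | (F : G → ℂ) ∈ P 0})
      (Set.disjoint_left.2 fun F h1 h2 => Set.disjoint_left.1 hdisj h1 h2)
    convert h using 2
    · ext F
      exact ⟨fun h => ⟨⟨F, Or.inl h⟩, h, rfl⟩, fun ⟨_, h, e⟩ => e ▸ h⟩
    · ext F
      exact ⟨fun h => ⟨⟨F, Or.inr h⟩, h, rfl⟩, fun ⟨_, h, e⟩ => e ▸ h⟩
  have hmem : ∀ χ : IrrCharacter G, (fun g => (χ : G → ℂ) (S.reg g)) ∈
      Submodule.span ℂ (P (if χ ∈ B then 1 else 0)) := by
    intro χ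
    rw [show (fun g => (χ : G → ℂ) (S.reg g)) = ((l χ).map fun t => S.brau t.2).sum from
      funext fun g => by rw [hsum, Pi.list_sum_apply, List.map_map]; rfl]
    refine list_sum_mem fun F hF => ?_
    obtain ⟨t, ht, rfl⟩ := List.mem_map.1 hF
    refine Submodule.subset_span ⟨t, (hl χ t ht).1, ?_, rfl⟩
    rw [(hl χ t ht).2]
    split_ifs <;> simp
  set w : G → ℂ := fun g =>
    S.brau s.2 g - ∑ χ ∈ blockFinset B, (a χ : ℂ) * (χ : G → ℂ) (S.reg g) with hw
  have h1 : w ∈ Submodule.span ℂ (P 1) := by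
    rw [show w = S.brau s.2 - ∑ χ ∈ blockFinset B,
        (a χ : ℂ) • fun g => (χ : G → ℂ) (S.reg g) from funext fun g => by simp [hw]]
    refine sub_mem (Submodule.subset_span ⟨s, hs, by rw [he, one_smul], rfl⟩)
      (sum_mem fun χ hχ => Submodule.smul_mem _ _ ?_)
    have h := hmem χ
    rwa [if_pos (mem_blockFinset.1 hχ)] at h
  have h0 : w ∈ Submodule.span ℂ (P 0) := by
    rw [show w = ∑ χ ∈ univ.filter (fun χ => χ ∉ B),
        (a χ : ℂ) • fun g => (χ : G → ℂ) (S.reg g) from funext fun g => by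
      rw [Finset.sum_apply]
      simp only [hw, Pi.smul_apply, smul_eq_mul]
      have e : S.brau s.2 g = ∑ χ, (a χ : ℂ) * (χ : G → ℂ) (S.reg g) := by
        conv_lhs => rw [← hG.brau_reg, ha]
        simp
      rw [e, show blockFinset B = univ.filter (fun χ => χ ∈ B) by ext; simp, sub_eq_iff_eq_add,
        ← Finset.sum_filter_add_sum_filter_not univ (fun χ : IrrCharacter G => χ ∈ B), add_comm]]
    refine sum_mem fun χ hχ => Submodule.smul_mem _ _ ?_
    have h := hmem χ
    rwa [if_neg (mem_filter.1 hχ).2] at h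
  have hw0 := Submodule.disjoint_def.1 hspan w h1 h0
  exact fun g => sub_eq_zero.1 (congrFun hw0 g)

variable {n : ℕ} (hdeg : ∀ χ ∈ B, charDegree (χ : G → ℂ) = n)
include hdeg

/-- The dimension of a simple module of the block is a multiple of the common degree. -/
theorem degree_dvd_of_simple (hG : S.Fits G) {s : S.CoordRep G} (hs : Simple s.2)
    (he : act s.2 (eS S hB) = 1) : n ∣ s.1 := by
  obtain ⟨a, ha⟩ := exists_block_comb S hB hG hs he
  have h := ha 1
  rw [brau_one, Module.finrank_fin_fun] at h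
  have h2 : ((s.1 : ℤ) : ℂ) = ((∑ χ ∈ blockFinset B, a χ * (n : ℤ) : ℤ) : ℂ) := by
    push_cast
    rw [h]
    refine Finset.sum_congr rfl fun χ hχ => ?_
    rw [PSys.reg, one_pow, (charDegree_spec χ).1, hdeg χ (mem_blockFinset.1 hχ)]
  rw [← Int.natCast_dvd_natCast, Int.cast_injective h2]
  exact Finset.dvd_sum fun χ _ => dvd_mul_left _ _

/-- A nonzero module of the block has at least the common dimension. -/
theorem degree_le_finrank (hG : S.Fits G) {W : Type} [AddCommGroup W] [Module S.K W]
    [FiniteDimensional S.K W] (ρ : Representation S.K G W)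
    (he : act ρ (eS S hB) = 1) (hW : 0 < finrank S.K W) : n ≤ finrank S.K W := by
  obtain ⟨l, hl, hsum, hact⟩ := hG.exists_factors _ W ρ rfl
  have hd : finrank S.K W = (l.map fun s => s.1).sum := by
    apply Nat.cast_injective (R := ℂ)
    rw [← brau_one (S := S) ρ, hsum, Nat.cast_list_sum, List.map_map]
    congr 1
    refine List.map_congr_left fun s _ => ?_
    rw [brau_one, Module.finrank_fin_fun]
    rfl
  obtain ⟨s, hs⟩ : ∃ s, s ∈ l := by
    rcases l with _ | ⟨s, t⟩
    · simp [hd] at hW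
    · exact ⟨s, List.mem_cons_self⟩
  have h1 := degree_dvd_of_simple S hB hdeg hG (hl s hs)
    (by rw [hact _ 1 (by rw [he, one_smul]) s hs, one_smul])
  have h2 : 0 < s.1 := by
    refine Nat.pos_of_ne_zero fun h0 => act_one_ne_zero (hl s hs) ?_
    haveI : IsEmpty (Fin s.1) := by rw [h0]; infer_instance
    exact Subsingleton.elim _ _
  rw [hd]
  exact (Nat.le_of_dvd h2 h1).trans (List.le_sum_of_mem (List.mem_map.2 ⟨s, hs, rfl⟩))

/-- The degree of a realisation of a member of the block. -/
theorem realisation_dim {d : ℕ} (A : G →* Matrix (Fin d) (Fin d) S.V) {χ : IrrCharacter G}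
    (hχ : χ ∈ B) (htr : ∀ g, (((A g).trace : S.V) : ℂ) = (χ : G → ℂ) g) : d = n := by
  have h := degree_eq (above S) A htr
  rw [(charDegree_spec χ).1, hdeg χ hχ] at h
  exact_mod_cast h.symm

include hB in
/-- Reduced members of the block are simple. -/
theorem simple_red (hG : S.Fits G) {d : ℕ} (A : G →* Matrix (Fin d) (Fin d) S.V)
    {χ : IrrCharacter G} (hχ : χ ∈ B) (htr : ∀ g, (((A g).trace : S.V) : ℂ) = (χ : G → ℂ) g) :
    Simple (red A) := by
  classical
  have hd := realisation_dim S hdeg A hχ htr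
  have hpos : 0 < d := hd ▸ hdeg χ hχ ▸ (charDegree_spec χ).2.1
  haveI : Nonempty (Fin d) := ⟨⟨0, hpos⟩⟩
  have hact : act (red A) (eS S hB) = 1 := by rw [act_red_eS S hB A htr, if_pos hχ]
  refine ⟨fun g _ x _ => Submodule.mem_top, top_ne_bot, fun U _ hU => ?_⟩
  by_cases hbot : U = ⊥
  · exact Or.inl hbot
  refine Or.inr (Submodule.eq_top_of_finrank_eq (le_antisymm (Submodule.finrank_le U) ?_))
  refine le_of_eq_of_le ((Module.finrank_fin_fun S.K).trans hd) ?_
  refine degree_le_finrank S hB hdeg hG (subRep (red A) U fun g => hU g (Subgroup.mem_top g)) ?_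
    (Module.finrank_pos_iff.2 (Submodule.nontrivial_iff_ne_bot.2 hbot))
  refine LinearMap.ext fun x => Subtype.ext ?_
  have h := LinearMap.congr_fun hact (x : Fin d → S.K)
  simp only [act, LinearMap.sum_apply, LinearMap.smul_apply, Module.End.one_apply,
    AddSubmonoidClass.coe_finsetSum, SetLike.val_smul] at h ⊢
  exact h

variable [hp : Fact p.Prime]

include hB in
theorem blockHeight_eq_zero {χ : IrrCharacter G} (hχ : χ ∈ B) :
    blockHeight p B (χ : G → ℂ) = 0 := by
  obtain ⟨j, hj, hj0⟩ := exists_height_eq_zero (p := p) (isPBlock_nonempty hB)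
  unfold blockHeight at hj0 ⊢
  rwa [hdeg χ hχ, ← hdeg j hj]

include hB in
/-- All members agree on the `p`-regular elements. -/
theorem apply_reg_eq (hG : S.Fits G) {χ η : IrrCharacter G} (hχ : χ ∈ B) (hη : η ∈ B) (g : G) :
    (χ : G → ℂ) (S.reg g) = (η : G → ℂ) (S.reg g) := by
  classical
  revert g
  by_contra hne
  set f : IrrCharacter G → G → ℂ := fun ψ g => (ψ : G → ℂ) (S.reg g) with hf
  have hne' : f χ ≠ f η := fun h => hne fun g => congrFun h g
  have hregp : ∀ g, ¬ p ∣ orderOf (S.reg g) := fun g =>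
    (hG.reg_eq_self_iff _).1 (hG.reg_reg g)
  let L : ∀ ψ : IrrCharacter G, LocalRep (above S) ψ := fun ψ => (exists_localRep (above S) ψ).some
  set F := (blockFinset B).image f with hF
  have hpre : ∀ F0 ∈ F, ∃ ψ, ψ ∈ B ∧ f ψ = F0 := fun F0 h0 => by
    obtain ⟨ψ, hψ, rfl⟩ := mem_image.1 h0
    exact ⟨ψ, mem_blockFinset.1 hψ, rfl⟩
  choose ψ0 hψ0 hψ0f using hpre
  have hw := weakOrth (p := p) S.hM hB
  set R : IrrCharacter G → ℂ := fun ψ => regInner p (χ : G → ℂ) (ψ : G → ℂ) with hR
  have hRf : ∀ ψ, f ψ = f η → R ψ = R η := by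
    intro ψ h
    simp only [hR]
    rw [regInner_comm p χ ψ, regInner_comm p χ η, regInner, regInner]
    congr 1
    funext g
    simp only [pRegularPart_apply]
    split_ifs with hg
    · rfl
    · have := congrFun h g
      simp only [hf, (hG.reg_eq_self_iff g).2 hg] at this
      exact this
  let c : F → ℂ := fun F0 =>
    (∑ ψ ∈ (blockFinset B).filter (fun ψ => f ψ = F0), R ψ) - if F0.1 = f χ then 1 else 0
  have hindep := hG.eq_zero_of_sum
    (fun F0 : F => ⟨(L (ψ0 F0.1 F0.2)).N, red (L (ψ0 F0.1 F0.2)).ρ⟩)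
    (fun F0 => simple_red S hB hdeg hG _ (hψ0 _ _) (L _).trace_eq)
    (fun F0 F1 h => by
      refine Subtype.ext ?_
      rw [← hψ0f _ F0.2, ← hψ0f _ F1.2]
      funext g
      have := congrFun h g
      simp only [brau_red_eq S hG _ (L _).trace_eq] at this
      exact this)
    c (fun g => by
      simp only [brau_red_eq S hG _ (L _).trace_eq]
      have hg : ∀ F0 : F, (ψ0 F0.1 F0.2 : G → ℂ) (S.reg g) = F0.1 g := fun F0 =>
        congrFun (hψ0f _ F0.2) g
      simp only [hg, c, sub_mul, Finset.sum_sub_distrib]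
      rw [Finset.sum_coe_sort F fun F0 =>
          (∑ ψ ∈ (blockFinset B).filter (fun ψ => f ψ = F0), R ψ) * F0 g,
        Finset.sum_coe_sort F fun F0 => (if F0 = f χ then 1 else 0 : ℂ) * F0 g]
      have hA : ∑ F0 ∈ F, (∑ ψ ∈ (blockFinset B).filter (fun ψ => f ψ = F0), R ψ) * F0 g =
          ∑ ψ ∈ blockFinset B, R ψ * f ψ g := by
        rw [← Finset.sum_fiberwise_of_maps_to (fun ψ hψ => mem_image_of_mem f hψ)
          (fun ψ => R ψ * f ψ g)]
        refine Finset.sum_congr rfl fun F0 _ => ?_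
        rw [Finset.sum_mul]
        exact Finset.sum_congr rfl fun ψ hψ => by rw [(mem_filter.1 hψ).2]
      rw [hA]
      simp only [ite_mul, one_mul, zero_mul, Finset.sum_ite_eq',
        show f χ ∈ F from mem_image_of_mem f (mem_blockFinset.2 hχ), if_true]
      have h := congrFun (pRegularPart_eq_sum_block hw hχ) (S.reg g)
      rw [pRegularPart_apply, if_neg (hregp g), Finset.sum_apply] at h
      simp only [hf, hR, Pi.smul_apply, smul_eq_mul] at h ⊢
      rw [← h, sub_self])
    ⟨f η, mem_image_of_mem f (mem_blockFinset.2 hη)⟩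
  simp only [c, if_neg hne'.symm, sub_zero] at hindep
  rw [Finset.sum_congr rfl (g := fun _ => R η) (fun ψ hψ => hRf ψ (mem_filter.1 hψ).2),
    Finset.sum_const, nsmul_eq_mul, mul_eq_zero, Nat.cast_eq_zero, Finset.card_eq_zero] at hindep
  have hR0 : R η = 0 := hindep.resolve_left fun h =>
    Finset.eq_empty_iff_forall_notMem.1 h η (mem_filter.2 ⟨mem_blockFinset.2 hη, rfl⟩)
  refine regEntry_ne_zero hw S.hM hB hχ hη (blockHeight_eq_zero hB hdeg hη) ?_
  apply Int.cast_injective (α := ℂ)
  rw [coe_regEntry hχ, show regInner p (χ : G → ℂ) (η : G → ℂ) = 0 from hR0, mul_zero, Int.cast_zero]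

include hB in
/-- A block with equal degrees has as many members as its defect group has elements, and its
characters cancel at the `p`-singular elements. -/
theorem card_eq (hG : S.Fits G) :
    Nat.card B = p ^ blockDefect p B ∧
      ∀ g, p ∣ orderOf g → ∑ χ ∈ blockFinset B, (χ : G → ℂ) g = 0 := by
  classical
  have hw := weakOrth (p := p) S.hM hB
  obtain ⟨j, hj⟩ := isPBlock_nonempty hB
  have hpR : ∀ ψ ∈ B, pRegularPart p (ψ : G → ℂ) = pRegularPart p (j : G → ℂ) := by
    intro ψ hψ
    funext g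
    simp only [pRegularPart_apply]
    split_ifs with hg
    · rfl
    · have h := apply_reg_eq S hB hdeg hG hψ hj g
      rwa [(hG.reg_eq_self_iff g).2 hg] at h
  set r := regInner p (j : G → ℂ) (j : G → ℂ) with hr
  have hRr : ∀ ψ ∈ B, regInner p (j : G → ℂ) (ψ : G → ℂ) = r := fun ψ hψ => by
    rw [regInner_comm, regInner, hpR ψ hψ, hr, regInner]
  have hexp : ∀ g, pRegularPart p (j : G → ℂ) g = r * ∑ ψ ∈ blockFinset B, (ψ : G → ℂ) g := by
    intro g
    rw [pRegularPart_eq_sum_block hw hj, Finset.sum_apply, Finset.mul_sum]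
    exact Finset.sum_congr rfl fun ψ hψ => by
      rw [Pi.smul_apply, smul_eq_mul, hRr ψ (mem_blockFinset.1 hψ)]
  have hn : (n : ℂ) ≠ 0 := Nat.cast_ne_zero.2 (hdeg j hj ▸ (charDegree_spec j).2.1).ne'
  have hk : (Nat.card B : ℂ) * r = 1 := by
    have h := hexp 1
    rw [pRegularPart_apply, orderOf_one, if_neg hp.out.not_dvd_one,
      Finset.sum_congr rfl (g := fun _ => (n : ℂ)) (fun ψ hψ => by
        rw [(charDegree_spec ψ).1, hdeg ψ (mem_blockFinset.1 hψ)]),
      Finset.sum_const, card_blockFinset, nsmul_eq_mul, (charDegree_spec j).1, hdeg j hj] at h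
    refine mul_right_cancel₀ hn ?_
    rw [one_mul]
    linear_combination -h
  refine ⟨?_, fun g hg => ?_⟩
  · set q := regEntry p B j j with hq
    have h1 : (Nat.card B : ℤ) * q = (p : ℤ) ^ blockDefect p B := by
      apply Int.cast_injective (α := ℂ)
      push_cast
      rw [hq, coe_regEntry hj, ← hr, mul_left_comm, hk, mul_one]
    obtain ⟨i, hi, hki⟩ := (Nat.dvd_prime_pow hp.out).1
      (show Nat.card B ∣ p ^ blockDefect p B from Int.natCast_dvd_natCast.1 ⟨q, by push_cast; rw [h1]⟩)
    rcases hi.lt_or_eq with hlt | rfl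
    · refine absurd ?_ (not_pow_succ_height_dvd hw S.hM hB hj hj (blockHeight_eq_zero hB hdeg hj))
      rw [blockHeight_eq_zero hB hdeg hj, zero_add, pow_one, ← hq]
      rw [hki, Nat.cast_pow] at h1
      refine ⟨(p : ℤ) ^ (blockDefect p B - i - 1), mul_left_cancel₀
        (pow_ne_zero i (Nat.cast_ne_zero.2 hp.out.ne_zero)) ?_⟩
      rw [h1, ← mul_assoc, ← pow_succ, ← pow_add]
      congr 1
      omega
    · exact hki
  · have h := hexp g
    rw [pRegularPart_apply, if_pos hg] at h
    exact (mul_eq_zero.1 h.symm).resolve_left fun h0 => by simp [h0] at hk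

end CfsgLib.EqualDegrees
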