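import Cfsg.Agent.Lib.EqualDegrees.Form
import Cfsg.Agent.Lib.BrauerPairs.AbelianDefect
import Cfsg.Agent.Lib.BrauerPairs.BridgePairs
import Cfsg.Agent.Lib.BrauerPairs.CentralPair
import Cfsg.Agent.Lib.Blocks.Defect

/-!
# A block with abelian defect group and equal degrees is nilpotent

Modulo the maximal ideal the regular form of the block is pulled back from the regular form of a
root along the inclusion of the classes of the centraliser of the defect group. The latter has
rank at most the order of the defect group, the former at least that, so the inertial stabiliser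
fixes the regular form of the root, and hence the defect group.
-/

set_option autoImplicit false
set_option linter.style.haveILetI false
set_option linter.unusedSectionVars false

noncomputable section

namespace CfsgLib.EqualDegrees

open Cfsg CfsgLib.Blocks CfsgLib.IBr CfsgLib.IBr.PSys CfsgLib.BrauerCharacters
  CfsgLib.Jordan.CyclicDefect CfsgLib.BrauerPairs MonoidAlgebra Module Finset
open scoped Matrix

universe u

variable {p : ℕ} [hp : Fact p.Prime] {M : Ideal AlgInt} [M.IsPrime] (S : PSys p M)

theorem ite_eq_of_iff {α : Type*} {a b : Prop} {da : Decidable a} {db : Decidable b} {x y : α}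
    (h : a ↔ b) : @ite α a da x y = @ite α b db x y :=
  @if_congr _ _ _ da db _ _ _ _ h rfl rfl

theorem cnt_conj {R : Type*} [CommRing R] {H : Type*} [Group H] [Fintype H] (K L : ConjClasses H)
    (u x : H) : cnt R K L (u * x * u⁻¹) = cnt R K L x := by
  classical
  rw [cnt, cnt]
  refine (Fintype.sum_equiv (MulAut.conj u).toEquiv _ _ fun y => ?_).symm
  have e1 : ConjClasses.mk (u * y * u⁻¹) = ConjClasses.mk y :=
    (ConjClasses.mk_eq_mk_iff_isConj.2 (isConj_iff.2 ⟨u, rfl⟩)).symm
  have e2 : ConjClasses.mk ((u * y * u⁻¹)⁻¹ * (u * x * u⁻¹)) = ConjClasses.mk (y⁻¹ * x) :=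
    (ConjClasses.mk_eq_mk_iff_isConj.2 (isConj_iff.2 ⟨u, by group⟩)).symm
  refine ite_eq_of_iff ?_
  show _ ↔ ConjClasses.mk (u * y * u⁻¹) = K ∧
    ConjClasses.mk ((u * y * u⁻¹)⁻¹ * (u * x * u⁻¹)) = L
  rw [e1, e2]

open scoped Classical in
theorem sum_fiber {R : Type*} [CommRing R] {α ι κ : Type*} [Fintype α] [Fintype ι] (f : ι → κ)
    (g1 g2 : α → ι) (K K' : κ) :
    (∑ L : ι, if f L = K then (∑ L' : ι, if f L' = K' then
      (∑ a : α, if g1 a = L ∧ g2 a = L' then (1 : R) else 0) else 0) else 0) =
        ∑ a : α, if f (g1 a) = K ∧ f (g2 a) = K' then 1 else 0 := by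
  have h : ∀ L L' : ι, (if f L = K then (if f L' = K' then
      (∑ a : α, if g1 a = L ∧ g2 a = L' then (1 : R) else 0) else 0) else 0) =
      ∑ a : α, if g1 a = L ∧ g2 a = L' then (if f L = K ∧ f L' = K' then 1 else 0) else 0 := by
    intro L L'
    by_cases h1 : f L = K <;> by_cases h2 : f L' = K' <;> simp [h1, h2]
  calc _ = ∑ L : ι, ∑ L' : ι, if f L = K then (if f L' = K' then
        (∑ a : α, if g1 a = L ∧ g2 a = L' then (1 : R) else 0) else 0) else 0 :=
        Finset.sum_congr rfl fun L _ => by split_ifs <;> simp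
    _ = _ := by
        simp only [h]
        rw [Finset.sum_congr rfl fun L _ => Finset.sum_comm, Finset.sum_comm]
        refine Finset.sum_congr rfl fun a _ => ?_
        simp [ite_and]

section Local

variable {C : Type u} [Group C] [Fintype C] [Fintype (ConjClasses C)]

theorem mk_map_out {C' : Type*} [Group C'] (f : C →* C') (c : ConjClasses C) :
    ConjClasses.mk (f c.out) = ConjClasses.map f c := by
  conv_rhs => rw [← mk_out c]
  rfl

/-- Over a central defect group the regular weight has rank at most the order of that group and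
is invariant under the symmetries of the block. -/
theorem exists_root (hM : IsPModular p M) {D : Subgroup C} (hDz : D ≤ Subgroup.center C)
    (hDp : IsPGroup p D) {d : ℕ} (hd : Nat.card D = p ^ d) {c : Set (IrrCharacter C)}
    (hc : IsPBlock M c) (hdef : blockDefect p c ≤ d) :
    ∃ θ ∈ c, (tw fun L => IsLocalRing.residue S.V (regW S θ L)).rank ≤ p ^ d ∧
      ∀ σ : C ≃* C, (∀ ξ ∈ c, ∃ ξ' ∈ c, ∀ k, (ξ' : C → ℂ) (σ k) = (ξ : C → ℂ) k) →
        ∀ L, regW S θ (ConjClasses.map σ.toMonoidHom L) = regW S θ L := by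
  classical
  obtain ⟨-, θ, hθ, a, hreg, -, -, hsum⟩ := exists_regular_generator hM hDz hDp hd hc hdef
  refine ⟨θ, hθ, ?_, ?_⟩
  · have hθ1 : (θ : C → ℂ) 1 ≠ 0 := CharTheory.apply_one_ne_zero_of_isIrr θ.2
    have h1 : ∀ ξ ∈ c, (ξ : C → ℂ) 1 = (a ξ : ℂ) * (θ : C → ℂ) 1 := fun ξ hξ =>
      hreg ξ hξ 1 (by rw [orderOf_one]; exact hp.out.not_dvd_one)
    have ha : ∀ ξ ∈ c, a ξ ≠ 0 := fun ξ hξ h => CharTheory.apply_one_ne_zero_of_isIrr ξ.2 (by
      rw [h1 ξ hξ, h, Int.cast_zero, zero_mul])
    have hcl : ∀ L : ConjClasses C, ∑ ξ ∈ blockFinset c, (a ξ : ℂ) * (a ξ : ℂ) *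
        centralChar (ξ : C → ℂ) L.out = ((p ^ d : ℕ) : ℂ) * (regW S θ L : ℂ) := by
      intro L
      have hterm : ∀ ξ ∈ blockFinset c, (a ξ : ℂ) * (a ξ : ℂ) * centralChar (ξ : C → ℂ) L.out =
          ((Subgroup.centralizer ({L.out} : Set C)).index : ℂ) / (θ : C → ℂ) 1 *
            ((a ξ : ℂ) * (ξ : C → ℂ) L.out) := by
        intro ξ hξ
        rw [centralChar, h1 ξ (mem_blockFinset.1 hξ)]
        have := ha ξ (mem_blockFinset.1 hξ)
        have : (a ξ : ℂ) ≠ 0 := Int.cast_ne_zero.2 this
        field_simp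
      rw [Finset.sum_congr rfl hterm, ← Finset.mul_sum, coe_regW]
      split_ifs with hL
      · have h := finsum_mul_conj_eq_zero_of_isPBlock hM hc (x := 1) (y := L.out⁻¹)
          (by rw [orderOf_one]; exact hp.out.not_dvd_one) (by rwa [orderOf_inv])
        rw [finsum_mem_eq_sum_blockFinset, Finset.sum_congr rfl (g := fun ξ : IrrCharacter C =>
          (θ : C → ℂ) 1 * ((a ξ : ℂ) * (ξ : C → ℂ) L.out)) (fun ξ hξ => by
            rw [h1 ξ (mem_blockFinset.1 hξ), ← CfsgLib.BrauerCharacters.conj_apply, Complex.conj_conj]; ring),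
          ← Finset.mul_sum, mul_eq_zero, or_iff_right hθ1] at h
        rw [h, mul_zero, mul_zero]
      · rw [Finset.sum_congr rfl (g := fun ξ : IrrCharacter C =>
          (a ξ : ℂ) * (a ξ : ℂ) * (θ : C → ℂ) L.out) (fun ξ hξ => by
            rw [hreg ξ (mem_blockFinset.1 hξ) _ hL]; ring), ← Finset.sum_mul, centralChar]
        have := congrArg (Int.cast : ℤ → ℂ) hsum
        push_cast at this ⊢
        rw [this]
        ring
    rw [← map_tw (IsLocalRing.residue S.V)]
    refine (rank_map_residue_le S _).trans ?_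
    let X : Matrix ↥(blockFinset c) (ConjClasses C) ℂ :=
      Matrix.of fun ξ L => centralChar ((ξ : IrrCharacter C) : C → ℂ) L.out
    let W : Matrix ↥(blockFinset c) (ConjClasses C) ℂ :=
      Matrix.of fun ξ L => ((p ^ d : ℕ) : ℂ)⁻¹ * ((a ξ : ℂ) * (a ξ : ℂ)) * X ξ L
    have hN : ((p ^ d : ℕ) : ℂ) ≠ 0 := Nat.cast_ne_zero.2 (pow_pos hp.out.pos _).ne'
    have hfac : (tw (regW S θ)).map S.V.subtype = Xᵀ * W := by
      ext K L
      refine mul_left_cancel₀ hN ?_
      rw [mul_tw_eq S θ (blockFinset c) (fun ξ => (a ξ : ℂ) * (a ξ : ℂ)) _ hcl, Matrix.mul_apply,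
        Finset.mul_sum, ← Finset.sum_coe_sort (blockFinset c)]
      refine Finset.sum_congr rfl fun ξ _ => ?_
      simp only [X, W, Matrix.transpose_apply, Matrix.of_apply]
      field_simp
    rw [hfac]
    refine (Matrix.rank_mul_le_left _ _).trans ?_
    refine (Matrix.rank_le_card_width _).trans ?_
    rw [Fintype.card_coe]
    have hle : ((blockFinset c).card : ℤ) ≤ ∑ ξ ∈ blockFinset c, a ξ * a ξ := by
      rw [Finset.card_eq_sum_ones]
      push_cast
      exact Finset.sum_le_sum fun ξ hξ => by
        rw [← sq]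
        exact Int.add_one_le_iff.2 (sq_pos_of_ne_zero (ha ξ (mem_blockFinset.1 hξ)))
    rw [hsum] at hle
    exact_mod_cast hle
  · intro σ hσ L
    obtain ⟨θ', hθ', hσθ⟩ := hσ θ hθ
    have ha' : (a θ' : ℂ) = 1 := by
      have h := hreg θ' hθ' 1 (by rw [orderOf_one]; exact hp.out.not_dvd_one)
      have h2 := hσθ 1
      rw [map_one, h] at h2
      exact (mul_eq_right₀ (CharTheory.apply_one_ne_zero_of_isIrr θ.2)).1 h2
    obtain ⟨u, hu⟩ : ∃ u : C, u * σ L.out * u⁻¹ = (ConjClasses.map σ.toMonoidHom L).out := by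
      refine isConj_iff.1 (ConjClasses.mk_eq_mk_iff_isConj.1 ?_)
      rw [mk_out, ← mk_map_out σ.toMonoidHom L]
      rfl
    have hord : orderOf (ConjClasses.map σ.toMonoidHom L).out = orderOf L.out := by
      rw [← hu, show orderOf (u * σ L.out * u⁻¹) = orderOf (σ L.out) from
        (MulAut.conj u).orderOf_eq _, MulEquiv.orderOf_eq]
    refine Subtype.ext ?_
    rw [coe_regW, coe_regW, hord]
    split_ifs with hL
    · rfl
    have hv : (θ : C → ℂ) (ConjClasses.map σ.toMonoidHom L).out = (θ : C → ℂ) L.out := by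
      rw [← hu, CharTheory.IsIrrCharacter.isClassFunction θ.2, ← hσθ L.out,
        hreg θ' hθ' _ (by rwa [MulEquiv.orderOf_eq]), ha', one_mul]
    rw [centralChar_apply, centralChar_apply, hv, ← card_filter_isConj, ← card_filter_isConj]
    congr 3
    refine (Finset.card_equiv σ.toEquiv fun x => ?_).symm
    simp only [Finset.mem_filter, Finset.mem_univ, true_and, isConj_out_iff,
      MulEquiv.toEquiv_eq_coe, MulEquiv.coe_toEquiv]
    constructor
    · intro h
      rw [← h]
      rfl
    · intro h
      have h2 := congrArg (ConjClasses.map σ.symm.toMonoidHom) h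
      rw [show ConjClasses.map σ.symm.toMonoidHom (ConjClasses.mk (σ x)) = ConjClasses.mk x by
        show ConjClasses.mk (σ.symm (σ x)) = _
        rw [σ.symm_apply_apply]] at h2
      rw [h2]
      conv_rhs => rw [← mk_out L]
      rw [← mk_map_out σ.toMonoidHom L]
      show ConjClasses.mk (σ.symm (σ L.out)) = _
      rw [σ.symm_apply_apply]

end Local

variable {G : Type u} [Group G] [Fintype G] {B : Set (IrrCharacter G)} {n : ℕ}

set_option maxHeartbeats 1600000 in
/-- Equal degrees force trivial inertial quotient. -/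
theorem stab_le_centralizer (hM : IsPModular p M) (hG : S.Fits G) (hB : IsPBlock M B)
    (hdeg : ∀ χ ∈ B, charDegree (χ : G → ℂ) = n) {P : Subgroup G}
    (hD : IsDefectGroup p M B P) (hab : ∀ x ∈ P, ∀ y ∈ P, x * y = y * x)
    {c : Set (IrrCharacter (Subgroup.centralizer (P : Set G)))} (hc : IsPBlock M c)
    (hmax : IsMaxPair p (⊤ : Subgroup G) (redElem M (blockCoeff B)) P (subIdem M _ c))
    {t : G} (ht : t ∈ pairStab (⊤ : Subgroup G) P (subIdem M _ c)) :
    t ∈ Subgroup.centralizer (P : Set G) := by
  classical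
  haveI : M.IsMaximal := hM.2.1
  haveI := charP_res hM
  haveI := isAlgClosed_res (M := M)
  haveI := S.charP
  obtain ⟨θ0, hθ0⟩ := isPBlock_nonempty hB
  have hb := isBlockIdem_redElem_blockCoeff (M := M) hB
  have hP : IsPGroup p P := hmax.1.1.1
  have hPC : P ≤ Subgroup.centralizer (P : Set G) := fun u hu =>
    Subgroup.mem_centralizer_iff.2 fun v hv => hab v hv u hu
  haveI := Fintype.ofFinite (Subgroup.centralizer (P : Set G))
  haveI := Fintype.ofFinite (ConjClasses (Subgroup.centralizer (P : Set G)))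
  haveI := Fintype.ofFinite (ConjClasses G)
  have hind : IsInducedBlock M (Subgroup.centralizer (P : Set G)) c B :=
    (isInducedBlock_iff hM hP hPC (Subgroup.centralizer_le_normalizer _) le_rfl hc hB).2 hmax.1.2
  have hDC : IsDefectGroup p M c (P.subgroupOf (Subgroup.centralizer (P : Set G))) := by
    obtain ⟨e', hn, hle'⟩ := (PairLE.refl p (⊤ : Subgroup G) P (subIdem M (Subgroup.centralizer (P : Set G)) c)).normalLE_of_le_normalizer
      hmax.1.1 le_rfl le_rfl Subgroup.le_normalizer
    rw [(existsUnique_pairLE hmax.1.1 le_rfl).unique hle' (PairLE.refl _ _ _ _)] at hn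
    have hm := hmax.local_of_abelian hb hab hn
    rw [cenIn_top] at hm
    rw [isDefectGroup_sub_iff hM hc, Subgroup.map_subgroupOf_eq_of_le hPC]
    exact hm.isDefectIn (isBlockIdem_subIdem hc)
  have hcard : Nat.card P = Nat.card B := by
    rw [card_isDefectGroup hM hB hD, (card_eq S hB hdeg hG).1]
  have hcardC : Nat.card (P.subgroupOf (Subgroup.centralizer (P : Set G))) = Nat.card P :=
    Nat.card_congr (Subgroup.subgroupOfEquivOfLe hPC).toEquiv
  obtain ⟨θ, hθ, hrank, hinv⟩ := exists_root S hM (D := P.subgroupOf (Subgroup.centralizer (P : Set G))) (c := c)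
    (fun x hx => Subgroup.mem_center_iff.2 fun y => Subtype.ext
      ((Subgroup.mem_centralizer_iff.1 y.2) x.1 hx).symm)
    (hP.of_equiv (Subgroup.subgroupOfEquivOfLe hPC).symm) (card_isDefectGroup hM hc hDC) hc le_rfl
  rw [← card_isDefectGroup hM hc hDC, hcardC, hcard] at hrank
  set res := IsLocalRing.residue S.V
  set wG : ConjClasses G → S.K := fun K => res (regW S θ0 K)
  set wC : ConjClasses (Subgroup.centralizer (P : Set G)) → S.K := fun L => res (regW S θ L)
  set f : ConjClasses (Subgroup.centralizer (P : Set G)) → ConjClasses G := ConjClasses.map (Subgroup.centralizer (P : Set G)).subtype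
  -- the weights
  have hw : ∀ K, wG K = ∑ L, if f L = K then wC L else 0 := by
    intro K
    by_cases hK : p ∣ orderOf K.out
    · rw [show wG K = 0 by simp [wG, regW, hK], Finset.sum_eq_zero fun L _ => ?_]
      split_ifs with hL
      · have hL' : p ∣ orderOf L.out := by
          obtain ⟨u, hu⟩ : ∃ u : G, u * (L.out : G) * u⁻¹ = K.out := by
            refine isConj_iff.1 (ConjClasses.mk_eq_mk_iff_isConj.1 ?_)
            rw [mk_out, ← hL]
            exact mk_map_out (Subgroup.centralizer (P : Set G)).subtype L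
          rw [← hu, show orderOf (u * (L.out : G) * u⁻¹) = orderOf (L.out : G) from
            (MulAut.conj u).orderOf_eq _, Subgroup.orderOf_coe] at hK
          exact hK
        simp [wC, regW, hL']
      · rfl
    · have hreg : ∀ L, f L = K → ¬ p ∣ orderOf L.out := fun L hL h => hK (by
        obtain ⟨u, hu⟩ : ∃ u : G, u * (L.out : G) * u⁻¹ = K.out := by
          refine isConj_iff.1 (ConjClasses.mk_eq_mk_iff_isConj.1 ?_)
          rw [mk_out, ← hL]
          exact mk_map_out (Subgroup.centralizer (P : Set G)).subtype L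
        rw [← hu, show orderOf (u * (L.out : G) * u⁻¹) = orderOf (L.out : G) from
          (MulAut.conj u).orderOf_eq _, Subgroup.orderOf_coe]
        exact h)
      let z : MonoidAlgebra ℂ (Subgroup.centralizer (P : Set G)) :=
        ofFun fun h => if ConjClasses.mk (h : G) = K then 1 else 0
      have hz : IsClassElem z := isClassElem_ofFun fun u x => by
        rw [show ConjClasses.mk ((u * x * u⁻¹ : (Subgroup.centralizer (P : Set G))) : G) = ConjClasses.mk (x : G) from
          (ConjClasses.mk_eq_mk_iff_isConj.2 (isConj_iff.2 ⟨(u : G), rfl⟩)).symm]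
      have hcls : inducedCentralChar (Subgroup.centralizer (P : Set G)) (θ : (Subgroup.centralizer (P : Set G)) → ℂ) K.out =
          ∑ L : ConjClasses (Subgroup.centralizer (P : Set G)), if f L = K then centralChar (θ : (Subgroup.centralizer (P : Set G)) → ℂ) L.out else 0 := by
        have h := omega_eq_sum_classes (CharTheory.IsIrrCharacter.isClassFunction θ.2) hz
        rw [omega_eq_sum] at h
        simp only [z, coeff_ofFun, ite_mul, one_mul, zero_mul] at h
        rw [inducedCentralChar, finsum_mem_eq_finite_toFinset_sum _ (Set.toFinite _)]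
        refine Eq.trans ?_ (h.trans (Finset.sum_congr rfl fun L _ => ?_))
        · rw [← Finset.sum_filter, Finset.sum_div]
          refine Finset.sum_congr (Finset.ext fun x => ?_) fun _ _ => rfl
          simp [isConj_out_iff, -isConj_iff]
        · rw [show ConjClasses.mk (L.out : G) = f L from mk_map_out (Subgroup.centralizer (P : Set G)).subtype L]
      have hR : ∀ L : ConjClasses (Subgroup.centralizer (P : Set G)),
          MemLocalRing M (if f L = K then centralChar (θ : (Subgroup.centralizer (P : Set G)) → ℂ) L.out else 0) := fun L => by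
        split_ifs
        · exact memLocalRing_centralChar θ _
        · exact (locRing M).zero_mem
      have hlocal := hind.2.2 θ hθ θ0 hθ0 K.out
      rw [hcls] at hlocal
      have h := (above S).res_eq_of_sub (memLocalRing_sum fun L _ => hR L)
        (memLocalRing_centralChar θ0 K.out) hlocal
      rw [show wG K = res ⟨centralChar (θ0 : G → ℂ) K.out,
        S.hV (memLocalRing_centralChar θ0 K.out)⟩ by simp [wG, regW, hK]]
      refine h.symm.trans ?_
      rw [show (⟨∑ L : ConjClasses (Subgroup.centralizer (P : Set G)), if f L = K then centralChar (θ : (Subgroup.centralizer (P : Set G)) → ℂ) L.out else 0,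
          (above S).le _ (memLocalRing_sum fun L _ => hR L)⟩ : S.V) =
        ∑ L : ConjClasses (Subgroup.centralizer (P : Set G)), if f L = K then regW S θ L else 0 from ?_, map_sum]
      · refine Finset.sum_congr rfl fun L _ => ?_
        split_ifs <;> simp [wC, res]
      · refine Subtype.ext ?_
        push_cast
        refine Finset.sum_congr rfl fun L _ => ?_
        split_ifs with hL
        · rw [coe_regW, if_neg (hreg L hL)]
        · rfl
  -- the forms
  let Inc : Matrix (ConjClasses (Subgroup.centralizer (P : Set G))) (ConjClasses G) S.K :=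
    Matrix.of fun L K => if f L = K then 1 else 0
  have hT : tw wG = Incᵀ * (tw wC * Inc) := by
    ext K K'
    have hLHS : tw wG K K' = ∑ L, cnt S.K K K' (L.out : G) * wC L := by
      simp only [tw, Matrix.of_apply, hw, Finset.mul_sum, mul_ite, mul_zero]
      rw [Finset.sum_comm]
      refine Finset.sum_congr rfl fun L _ => ?_
      rw [Finset.sum_ite_eq, if_pos (Finset.mem_univ _)]
      congr 1
      have hcj : IsConj (f L).out (L.out : G) := by
        rw [isConj_out_iff]
        exact mk_map_out (Subgroup.centralizer (P : Set G)).subtype L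
      obtain ⟨u, hu⟩ := isConj_iff.1 hcj
      rw [← hu, cnt_conj]
    rw [hLHS]
    simp only [Matrix.mul_apply, Matrix.transpose_apply, tw, Matrix.of_apply, Inc, mul_ite,
      mul_one, mul_zero, ite_mul, one_mul, zero_mul]
    rw [show (∑ L : ConjClasses (Subgroup.centralizer (P : Set G)), if f L = K then (∑ L' : ConjClasses (Subgroup.centralizer (P : Set G)),
        if f L' = K' then ∑ N, cnt S.K L L' N.out * wC N else 0) else 0) =
      ∑ N : ConjClasses (Subgroup.centralizer (P : Set G)), (∑ L : ConjClasses (Subgroup.centralizer (P : Set G)), if f L = K then (∑ L' : ConjClasses (Subgroup.centralizer (P : Set G)),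
        if f L' = K' then cnt S.K L L' N.out else 0) else 0) * wC N by
        simp only [Finset.sum_mul, ite_mul, zero_mul]
        rw [Finset.sum_comm (γ := ConjClasses (Subgroup.centralizer (P : Set G)))]
        refine Finset.sum_congr rfl fun L _ => ?_
        split_ifs
        · rw [Finset.sum_comm (γ := ConjClasses (Subgroup.centralizer (P : Set G)))]
          refine Finset.sum_congr rfl fun L' _ => ?_
          split_ifs <;> simp
        · simp]
    refine Finset.sum_congr rfl fun N _ => ?_
    congr 1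
    rw [cnt, sum_eq_sum_centralizer (p := p) (A := S.K)
      (fun a => by rw [nsmul_eq_mul, CharP.cast_eq_zero, zero_mul]) P hP _ (fun q hq x => ?_)]
    · rw [Finset.sum_subtype (F := inferInstance) _
        (p := fun x => x ∈ Subgroup.centralizer (P : Set G)) fun x => by simp]
      refine Eq.trans ?_ (Eq.trans (sum_fiber (R := S.K) f (fun y => ConjClasses.mk y)
        (fun y => ConjClasses.mk (y⁻¹ * N.out)) K K').symm ?_)
      · exact Finset.sum_congr rfl fun y _ => ite_eq_of_iff Iff.rfl
      · refine Finset.sum_congr rfl fun L _ => ?_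
        by_cases hL : f L = K
        · rw [if_pos hL, if_pos hL]
          refine Finset.sum_congr rfl fun L' _ => ?_
          by_cases hL' : f L' = K'
          · rw [if_pos hL', if_pos hL']
            exact Finset.sum_congr rfl fun y _ => ite_eq_of_iff Iff.rfl
          · rw [if_neg hL', if_neg hL']
        · rw [if_neg hL, if_neg hL]
    · have hqN : q * (N.out : G) * q⁻¹ = N.out := by
        rw [Subgroup.mem_centralizer_iff.1 N.out.2 q hq, mul_inv_cancel_right]
      have e1 : ConjClasses.mk (q * x * q⁻¹) = ConjClasses.mk x :=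
        (ConjClasses.mk_eq_mk_iff_isConj.2 (isConj_iff.2 ⟨q, rfl⟩)).symm
      have e2 : ConjClasses.mk ((q * x * q⁻¹)⁻¹ * (N.out : G)) =
          ConjClasses.mk (x⁻¹ * (N.out : G)) := by
        conv_lhs => rw [← hqN]
        exact (ConjClasses.mk_eq_mk_iff_isConj.2 (isConj_iff.2 ⟨q, by group⟩)).symm
      simp only [e1, e2]
  -- equality of the ranks
  have hrange : LinearMap.range (tw wC * Inc).mulVecLin = LinearMap.range (tw wC).mulVecLin := by
    refine Submodule.eq_of_le_of_finrank_le ?_ ?_
    · rw [Matrix.mulVecLin_mul]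
      exact LinearMap.range_comp_le_range _ _
    · calc Matrix.rank (tw wC) ≤ Nat.card B := hrank
        _ ≤ (tw wG).rank := card_le_rank S hB hG hdeg hθ0
        _ ≤ (tw wC * Inc).rank := hT ▸ Matrix.rank_mul_le_right _ _
  -- the symmetry
  obtain ⟨htN, hst⟩ := (mem_pairStab_top_iff hc).1 ht
  obtain ⟨htC, hstab⟩ := hst
  have hσmem : ∀ k : (Subgroup.centralizer (P : Set G)), t * (k : G) * t⁻¹ ∈ (Subgroup.centralizer (P : Set G)) := fun k =>
    (Subgroup.mem_normalizer_iff.1 htC _).1 k.2
  have hσmem' : ∀ k : (Subgroup.centralizer (P : Set G)), t⁻¹ * (k : G) * t ∈ (Subgroup.centralizer (P : Set G)) := fun k =>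
    (Subgroup.mem_normalizer_iff.1 htC _).2 (by
      rw [show t * (t⁻¹ * (k : G) * t) * t⁻¹ = (k : G) by group]; exact k.2)
  let σ : (Subgroup.centralizer (P : Set G)) ≃* (Subgroup.centralizer (P : Set G)) :=
    { toFun := fun k => ⟨t * (k : G) * t⁻¹, hσmem k⟩
      invFun := fun k => ⟨t⁻¹ * (k : G) * t, hσmem' k⟩
      left_inv := fun k => Subtype.ext (by simp [mul_assoc])
      right_inv := fun k => Subtype.ext (by simp [mul_assoc])
      map_mul' := fun a b => Subtype.ext (by simp [mul_assoc]) }
  have hwσ : ∀ L, wC (ConjClasses.map σ.toMonoidHom L) = wC L := fun L => congrArg res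
    (hinv σ (fun ξ hξ => by
      obtain ⟨ξ', hξ', hconj⟩ := hstab ξ hξ
      exact ⟨ξ', hξ', fun k => hconj k (σ k) rfl⟩) L)
  set τ : ConjClasses (Subgroup.centralizer (P : Set G)) → ConjClasses (Subgroup.centralizer (P : Set G)) := ConjClasses.map σ.toMonoidHom with hτ
  let τe : ConjClasses (Subgroup.centralizer (P : Set G)) ≃ ConjClasses (Subgroup.centralizer (P : Set G)) :=
    { toFun := τ
      invFun := ConjClasses.map σ.symm.toMonoidHom
      left_inv := fun L => by
        induction L using Quotient.inductionOn with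
        | h a => show ConjClasses.mk (σ.symm (σ a)) = ConjClasses.mk a; rw [σ.symm_apply_apply]
      right_inv := fun L => by
        induction L using Quotient.inductionOn with
        | h a => show ConjClasses.mk (σ (σ.symm a)) = ConjClasses.mk a; rw [σ.apply_symm_apply] }
  have hτmk : ∀ a : (Subgroup.centralizer (P : Set G)), τ (ConjClasses.mk a) = ConjClasses.mk (σ a) := fun a => rfl
  have hcnt : ∀ L L' : ConjClasses (Subgroup.centralizer (P : Set G)), ∀ x, cnt S.K (τ L) (τ L') (σ x) = cnt S.K L L' x := by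
    intro L L' x
    rw [cnt, cnt]
    refine (Fintype.sum_equiv σ.toEquiv _ _ fun y => ?_).symm
    refine ite_eq_of_iff ?_
    show _ ↔ ConjClasses.mk (σ y) = τ L ∧ ConjClasses.mk ((σ y)⁻¹ * σ x) = τ L'
    rw [← map_inv, ← map_mul, ← hτmk, ← hτmk]
    exact and_congr τe.injective.eq_iff.symm τe.injective.eq_iff.symm
  have hTσ : ∀ L L', tw wC (τ L) (τ L') = tw wC L L' := by
    intro L L'
    simp only [tw, Matrix.of_apply]
    refine (Fintype.sum_equiv τe _ _ fun N => ?_).symm
    show _ = cnt S.K (τ L) (τ L') (τ N).out * wC (τ N)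
    rw [hwσ]
    congr 1
    obtain ⟨u, hu⟩ := isConj_iff.1 ((isConj_out_iff (τ N) (σ N.out)).2 (by
      rw [← hτmk, mk_out]))
    have hx : σ.symm (u * (τ N).out * u⁻¹) = N.out := by rw [hu, σ.symm_apply_apply]
    rw [← hx, ← hcnt L L', σ.apply_symm_apply, cnt_conj]
  have hfτ : ∀ L, f (τ L) = f L := fun L => by
    induction L using Quotient.inductionOn with
    | h a =>
      show ConjClasses.mk (σ a : G) = ConjClasses.mk (a : G)
      exact (ConjClasses.mk_eq_mk_iff_isConj.2 (isConj_iff.2 ⟨t, rfl⟩)).symm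
  have hfix : ∀ L L', tw wC (τ L) L' = tw wC L L' := by
    intro L L'
    have hmem : (tw wC).mulVecLin (Pi.single L' 1) ∈ LinearMap.range (tw wC * Inc).mulVecLin :=
      hrange ▸ LinearMap.mem_range_self _ _
    obtain ⟨v, hv⟩ := hmem
    simp only [Matrix.mulVecLin_apply, Matrix.mulVec_single_one] at hv
    have hcol : ∀ L K, (tw wC * Inc) (τ L) K = (tw wC * Inc) L K := by
      intro L K
      simp only [Matrix.mul_apply]
      refine (Fintype.sum_equiv τe _ _ fun N => ?_).symm
      show _ = tw wC (τ L) (τ N) * Inc (τ N) K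
      rw [hTσ]
      simp [Inc, hfτ]
    have h1 := congrFun hv (τ L)
    have h2 := congrFun hv L
    simp only [Matrix.col_apply] at h1 h2
    rw [← h1, ← h2]
    simp only [Matrix.mulVec, dotProduct, hcol]
  -- conclusion
  rw [Subgroup.mem_centralizer_iff]
  intro u hu
  by_contra hne
  set u0 : (Subgroup.centralizer (P : Set G)) := ⟨u, hPC hu⟩
  have hcen : ∀ x : (Subgroup.centralizer (P : Set G)), (x : G) ∈ P → ∀ y : (Subgroup.centralizer (P : Set G)), ConjClasses.mk y = ConjClasses.mk x → y = x := by
    intro x hx y hy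
    obtain ⟨w, hw⟩ := isConj_iff.1 (ConjClasses.mk_eq_mk_iff_isConj.1 hy.symm)
    rw [← hw]
    refine Subtype.ext ?_
    show (w : G) * (x : G) * (w : G)⁻¹ = (x : G)
    rw [← Subgroup.mem_centralizer_iff.1 w.2 x hx, mul_inv_cancel_right]
  have hval : ∀ x y : (Subgroup.centralizer (P : Set G)), (x : G) ∈ P → (y : G) ∈ P →
      tw wC (ConjClasses.mk x) (ConjClasses.mk y) = wC (ConjClasses.mk (x * y)) := by
    intro x y hx hy
    have hout : ∀ N : ConjClasses _,
        cnt S.K (ConjClasses.mk x) (ConjClasses.mk y) N.out =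
        if N = ConjClasses.mk (x * y) then 1 else 0 := by
      intro N
      rw [cnt]
      refine Eq.trans (Finset.sum_eq_single x
        (fun z _ hz => if_neg fun h => hz (hcen x hx z h.1))
        (fun h => absurd (Finset.mem_univ x) h)) ?_
      refine ite_eq_of_iff ⟨fun h => ?_, fun h => ⟨rfl, ?_⟩⟩
      · rw [← mk_out N, show N.out = x * y by rw [← hcen y hy _ h.2, mul_inv_cancel_left]]
      · rw [hcen (x * y) (P.mul_mem hx hy) N.out (by rw [mk_out, h]), inv_mul_cancel_left]
    simp only [tw, Matrix.of_apply, hout, ite_mul, one_mul, zero_mul, Finset.sum_ite_eq', Finset.mem_univ, if_true]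
  have htu : ((σ u0 : (Subgroup.centralizer (P : Set G))) : G) ∈ P := (Subgroup.mem_normalizer_iff.1 htN u).1 hu
  have h := hfix (ConjClasses.mk u0) (ConjClasses.mk u0⁻¹)
  rw [hτmk, hval _ _ htu (P.inv_mem hu), hval _ _ hu (P.inv_mem hu), mul_inv_cancel] at h
  have h1 : wC (ConjClasses.mk (1 : (Subgroup.centralizer (P : Set G)))) = 1 := by
    have ho : (ConjClasses.mk (1 : (Subgroup.centralizer (P : Set G)))).out = 1 :=
      hcen 1 P.one_mem _ (mk_out _)
    have h1' : centralChar (θ : (Subgroup.centralizer (P : Set G)) → ℂ) 1 = 1 := by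
      rw [← omega_classSum (CharTheory.IsIrrCharacter.isClassFunction θ.2) (1 : (Subgroup.centralizer (P : Set G)))]
      rw [show classSum ℂ (1 : (Subgroup.centralizer (P : Set G))) = 1 from MonoidAlgebra.ext (Finsupp.ext fun x => by
        simp [coeff_classSum, MonoidAlgebra.one_def, Finsupp.single_apply, eq_comm])]
      exact omega_one (CharTheory.apply_one_ne_zero_of_isIrr θ.2)
    simp only [wC, regW, ho, orderOf_one, if_neg hp.out.not_dvd_one, h1']
    exact map_one res
  have h0 : wC (ConjClasses.mk (σ u0 * u0⁻¹)) = 0 := by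
    have ho := hcen _ (P.mul_mem htu (P.inv_mem hu)) (ConjClasses.mk (σ u0 * u0⁻¹)).out (mk_out _)
    have hord : p ∣ orderOf (σ u0 * u0⁻¹) := by
      obtain ⟨k, hk⟩ := IsPGroup.iff_orderOf.1 hP ⟨_, P.mul_mem htu (P.inv_mem hu)⟩
      rw [Subgroup.orderOf_mk] at hk
      rw [← Subgroup.orderOf_coe, Subgroup.coe_mul, Subgroup.coe_inv, hk]
      refine dvd_pow_self p fun hk0 => hne ?_
      have h3 := orderOf_eq_one_iff.1 (show orderOf (t * u * t⁻¹ * u⁻¹) = 1 by
        rw [← show ((σ u0 : (Subgroup.centralizer (P : Set G))) : G) * (u0 : G)⁻¹ = t * u * t⁻¹ * u⁻¹ from rfl]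
        rw [hk, hk0, pow_zero])
      rw [mul_inv_eq_one, mul_inv_eq_iff_eq_mul] at h3
      exact h3.symm
    simp [wC, regW, ho, hord]
  rw [h1, h0] at h
  exact zero_ne_one h

/-- A block with abelian defect group and equal degrees is nilpotent. -/
theorem isNilpotentBlock_of_equal_degrees (hM : IsPModular p M) (hB : IsPBlock M B)
    (hdeg : ∀ χ ∈ B, charDegree (χ : G → ℂ) = n) {P : Subgroup G}
    (hD : IsDefectGroup p M B P) (hab : ∀ x ∈ P, ∀ y ∈ P, x * y = y * x) :
    IsNilpotentBlock p M B := by
  haveI : M.IsMaximal := hM.2.1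
  haveI := charP_res hM
  haveI := isAlgClosed_res (M := M)
  have hb := isBlockIdem_redElem_blockCoeff (M := M) hB
  obtain ⟨e, hmax⟩ := exists_isMaxPair_of_isDefectIn hb ((isDefectGroup_iff hM hB).1 hD)
  obtain ⟨c, hc, rfl⟩ := exists_block_of_isPair hmax.1.1
  obtain ⟨S, hS, -, -⟩ := IBr.exists_system hM (Nat.card G) Nat.card_pos.ne'
  refine (isNilpotentBlock_iff hM).2 ⟨hB, (hmax.isNilp_iff_of_abelian hb hab).2 fun t ht => ?_⟩
  exact stab_le_centralizer S hM hS hB hdeg hD hab hc.2 hmax ht

end CfsgLib.EqualDegrees
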